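import Cfsg.Agent.H574.IFO.Frame
import Cfsg.Agent.H567.FC.Fld
import Cfsg.Agent.H886.FC.ClassB
import Cfsg.Agent.H5.IFO.Sing

/-!
# S5719, `PSU_n(q)`, `|A|` odd: Singer cycles, few elements of `A` are fixed (helper716)
-/

set_option autoImplicit false
set_option linter.unusedSectionVars false

namespace Cfsg.Agent.H716.IFO.U

open Matrix Subgroup Cfsg.Agent.H198.FC Cfsg.Agent.LieClassical.HermBasic Cfsg.Agent.LieClassical.HermSiegel
  Cfsg.Agent.ClassicalGeometry.PSUAutCount Cfsg.Agent.Schreier.PSU Cfsg.Agent.H602.FC Cfsg.Agent.H209.Fxy Cfsg.Agent.H574.IFO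
open Cfsg.Agent.ClassicalGeometry.UnitAutBasic (pr pr_surjective)

variable {n : ℕ} {F : Type} [Field F] {q : ℕ} [Fintype F] (hF : Fintype.card F = q ^ 2)
  {A : Subgroup (Cfsg.PSU n F q)} {Γ : Subgroup (MulAut (Cfsg.PSU n F q))}

/-- `f` inverts the unitary elements of `E` -/
theorem inv_on {E : Subalgebra F (R F (H602.FC.V n F))} (hE : IsField E)
    (hadj : ∀ X ∈ E, ∃ Y ∈ E, (hb n hF).Adj X Y) {f : Equiv.Perm (R F (H602.FC.V n F))}
    (hf : f ∈ RP F (H602.FC.V n F)) (hff : f * f = 1) (hfE : ∀ X ∈ E, f X ∈ E)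
    (hnt : ∃ c : F, f (c • (1 : R F (H602.FC.V n F))) ≠ c • 1) {X Y : R F (H602.FC.V n F)} (hX : X ∈ E)
    (hXY : (hb n hF).Adj X Y) : f X = Y := by
  obtain ⟨st, hst, hst2, hstA, hstm⟩ := H886.FC.exists_st (hb n hF)
  let iE : Field E := hE.toField
  have hfin : Finite (R F (H602.FC.V n F)) := Cfsg.Agent.H716.FC.finite_R
  have : Finite E := inferInstance
  have hstE : ∀ X ∈ E, st X ∈ E := by
    intro X hX
    obtain ⟨Y, hY, hXY⟩ := hadj X hX
    rw [H886.FC.adj_unique (hb n hF) (hst X) hXY]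
    exact hY
  have hss : ∀ X, st (st X) = X := fun X => DFunLike.congr_fun hst2 X
  have hfs : ∀ X, f (f X) = X := fun X => DFunLike.congr_fun hff X
  have hcomm : ∀ X ∈ E, ∀ Y ∈ E, X * Y = Y * X := fun X hX Y hY =>
    congrArg Subtype.val (hE.mul_comm ⟨X, hX⟩ ⟨Y, hY⟩)
  let J : E ≃+* E :=
    { toFun := fun X => ⟨st X, hstE X X.2⟩
      invFun := fun X => ⟨st X, hstE X X.2⟩
      left_inv := fun X => Subtype.ext (hss X)
      right_inv := fun X => Subtype.ext (hss X)
      map_add' := fun X Y => Subtype.ext (hstA.1 X Y)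
      map_mul' := fun X Y => Subtype.ext ((hstm X Y).trans (hcomm _ (hstE Y Y.2) _ (hstE X X.2))) }
  let φ : E ≃+* E :=
    { toFun := fun X => ⟨f X, hfE X X.2⟩
      invFun := fun X => ⟨f X, hfE X X.2⟩
      left_inv := fun X => Subtype.ext (hfs X)
      right_inv := fun X => Subtype.ext (hfs X)
      map_add' := fun X Y => Subtype.ext (hf.1 X Y)
      map_mul' := fun X Y => Subtype.ext (hf.2 X Y) }
  have hJ1 : ∃ a, J a ≠ a := by
    obtain ⟨⟨c, hc⟩, -⟩ := hb_isU (n := n) hF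
    refine ⟨⟨c • 1, E.smul_mem (one_mem E) c⟩, fun h1 => ?_⟩
    have h2 : st (c • 1) = c • 1 := congrArg Subtype.val h1
    have h3 : (hb n hF).Adj (c • (1 : R F (H602.FC.V n F))) (c • 1) := by
      have h4 := hst (c • 1)
      rwa [h2] at h4
    obtain ⟨d, hd⟩ := hnt
    have hnt2 : Nontrivial (H602.FC.V n F) := by
      by_contra hcon
      rw [not_nontrivial_iff_subsingleton] at hcon
      apply hd
      ext v
      exact congrFun (Subsingleton.elim _ _) _
    obtain ⟨v, hv⟩ := exists_ne (0 : H602.FC.V n F)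
    apply hv
    apply (hb n hF).nondeg
    intro w
    have h5 : (hb n hF).B (c • v) w = (hb n hF).B v (c • w) := h3 v w
    rw [(hb n hF).smul_left, (hb n hF).smul_right] at h5
    have h6 : (c - (hb n hF).τ c) * (hb n hF).B v w = 0 := by linear_combination h5
    rcases mul_eq_zero.1 h6 with h7 | h7
    · exact absurd (sub_eq_zero.1 h7).symm hc
    · exact h7
  have hφ1 : ∃ a, φ a ≠ a := by
    obtain ⟨c, hc⟩ := hnt
    exact ⟨⟨c • 1, E.smul_mem (one_mem E) c⟩, fun h1 => hc (congrArg Subtype.val h1)⟩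
  have h1 : J = φ := H567.FC.invol_unique (fun X => Subtype.ext (hss X)) (fun X => Subtype.ext (hfs X)) hJ1 hφ1
  have h2 : (J ⟨X, hX⟩ : R F (H602.FC.V n F)) = φ ⟨X, hX⟩ := by rw [h1]
  have h3 : st X = f X := h2
  rw [← h3]
  exact H886.FC.adj_unique (hb n hF) (hst X) hXY

include hF in
theorem sing_up (hn : 3 ≤ n) [IsSimpleGroup (Cfsg.PSU n F q)] (h : IF A Γ) (hodd : Odd (Nat.card A))
    (E : Subalgebra F (R F (H602.FC.V n F))) (hE : IsField E) (hd : Module.finrank F E = n)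
    (hadj : ∀ X ∈ E, ∃ Y ∈ E, (hb n hF).Adj X Y) (hSE : ∀ f ∈ SS Γ, ∀ X ∈ E, f X ∈ E)
    {f : Equiv.Perm (R F (H602.FC.V n F))} {σ : MulAut (Cfsg.PSU n F q)} (hf : ((f, σ) : GGU n F q) ∈ HU n F q)
    (hσ : σ ∈ Γ) (ho : orderOf σ = 2) (hnt : ∃ c : F, f (c • (1 : R F (H602.FC.V n F))) ≠ c • 1) :
    Nat.card {a // a ∈ A ∧ σ a = a} ≤ n := by
  classical
  have hfS : f ∈ SS Γ := mem_SS.2 ⟨σ, hσ, hf⟩
  have hfR : f ∈ RP F (H602.FC.V n F) := (SS_le hF hfS).1
  have hσ2 : σ * σ = 1 := by rw [← pow_two, ← ho, pow_orderOf_eq_one]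
  have hff : f * f = 1 := by
    refine eq_of_snd hF hn (σ := 1) ?_ (one_mem _)
    have h1 := mul_mem hf hf
    have h2 : ((f, σ) : GGU n F q) * (f, σ) = (f * f, 1) := Prod.ext rfl hσ2
    rwa [h2] at h1
  have hfs : ∀ X, f (f X) = X := fun X => DFunLike.congr_fun hff X
  have hfin : Finite (R F (H602.FC.V n F)) := Cfsg.Agent.H716.FC.finite_R
  have hdim : Module.finrank F (H602.FC.V n F) = n := by simp [H602.FC.V]
  have hntV : Nontrivial (H602.FC.V n F) := Module.nontrivial_of_finrank_pos (R := F) (by rw [hdim]; omega)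
  -- the elements of `E`
  have key : ∀ s : Cfsg.SU n F q, (us s : R F (H602.FC.V n F)) ∈ E → pr n F q s ∈ A → σ (pr n F q s) = pr n F q s →
      pr n F q s = 1 := by
    intro s hs hsA hsσ
    have h1 : f * cs s * f⁻¹ = cs s := conj_cs hF hn hf hsσ.symm
    have h2 : (hb n hF).Adj (us s : R F (H602.FC.V n F)) (((us s)⁻¹ : (R F (H602.FC.V n F))ˣ) : R F (H602.FC.V n F)) := by
      intro v w
      have h3 := gu_isom hF (gu s) v ((((us s)⁻¹ : (R F (H602.FC.V n F))ˣ) : R F (H602.FC.V n F)) w)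
      have h4 : (us s : R F (H602.FC.V n F)) ((((us s)⁻¹ : (R F (H602.FC.V n F))ˣ) : R F (H602.FC.V n F)) w) = w := by
        rw [← Module.End.mul_apply, Units.mul_inv, Module.End.one_apply]
      rw [← h3]
      change (hb n hF).B ((us s : R F (H602.FC.V n F)) v) w = (hb n hF).B ((us s : R F (H602.FC.V n F)) v)
        ((us s : R F (H602.FC.V n F)) ((((us s)⁻¹ : (R F (H602.FC.V n F))ˣ) : R F (H602.FC.V n F)) w))
      rw [h4]
    have h5 := inv_on hF hE hadj hfR hff (hSE f hfS) hnt hs h2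
    have h6 : f (((us s)⁻¹ : (R F (H602.FC.V n F))ˣ) : R F (H602.FC.V n F)) = us s := by rw [← h5, hfs]
    have h7 : f * cs s * f⁻¹ = (cs s)⁻¹ := by
      rw [cs, ← map_inv]
      apply Equiv.ext
      intro X
      change f ((us s : R F (H602.FC.V n F)) * f⁻¹ X * (((us s)⁻¹ : (R F (H602.FC.V n F))ˣ) : R F (H602.FC.V n F))) = _
      rw [hfR.2, hfR.2, h5, h6]
      have h8 : f (f⁻¹ X) = X := f.apply_symm_apply X
      rw [h8, cj_apply, inv_inv]
    rw [h1] at h7
    have h8 : cs s * cs s = 1 := by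
      nth_rewrite 1 [h7]
      exact inv_mul_cancel _
    have h9 : cs (s * s) = 1 := by
      rw [← h8, cs, cs, map_mul, map_mul]
    have h10 := pair_mem (s * s)
    rw [h9] at h10
    have h11 : MulAut.conj (pr n F q (s * s)) = 1 := eq_of_fst h10 (one_mem _)
    have h12 : pr n F q (s * s) = 1 := by
      apply center_bot h
      intro y
      have h13 := DFunLike.congr_fun h11 y
      rw [MulAut.conj_apply, MulAut.one_apply] at h13
      exact mul_inv_eq_iff_eq_mul.1 h13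
    have h13 : pr n F q s ^ 2 = 1 := by rw [pow_two, ← map_mul, h12]
    have h14 := orderOf_dvd_of_pow_eq_one h13
    have h15 : orderOf (pr n F q s) ∣ Nat.card A := by
      have h16 := orderOf_dvd_natCard (⟨pr n F q s, hsA⟩ : A)
      rwa [Subgroup.orderOf_mk] at h16
    exact orderOf_eq_one_iff.1 (Nat.eq_one_of_dvd_coprimes (Nat.coprime_two_left.2 hodd) h14 h15)
  let iE : Field E := hE.toField
  have : Finite E := inferInstance
  -- the action on `E`
  have hres : ∀ a : {a // a ∈ A ∧ σ a = a}, ∃ (s : Cfsg.SU n F q) (g : E →ₐ[F] E), pr n F q s = a.1 ∧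
      ∀ X : E, (g X : R F (H602.FC.V n F)) = cs s X := by
    rintro ⟨a, ha, -⟩
    obtain ⟨s, rfl⟩ := pr_surjective a
    have hE' : ∀ X ∈ E, cs s X ∈ E := hSE _ ((cs_mem_SS h).2 ha)
    refine ⟨s, AlgHom.ofLinearMap
      { toFun := fun X => ⟨cs s X, hE' X X.2⟩
        map_add' := fun X Y => Subtype.ext ((cj_mem_RP (us s)).1 X Y)
        map_smul' := fun c X => Subtype.ext (by
          change (us s : R F (H602.FC.V n F)) * (c • (X : R F (H602.FC.V n F))) *
            (((us s)⁻¹ : (R F (H602.FC.V n F))ˣ) : R F (H602.FC.V n F)) = c • (cs s X)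
          rw [mul_smul_comm, smul_mul_assoc, cj_apply]) } ?_ ?_, rfl, fun X => rfl⟩
    · apply Subtype.ext
      change (us s : R F (H602.FC.V n F)) * (1 : R F (H602.FC.V n F)) *
        (((us s)⁻¹ : (R F (H602.FC.V n F))ˣ) : R F (H602.FC.V n F)) = 1
      rw [mul_one, Units.mul_inv]
    · intro X Y
      exact Subtype.ext ((cj_mem_RP (us s)).2 X Y)
  choose s g hs hg using hres
  have hcard : Nat.card (E →ₐ[F] E) ≤ n := (card_algHom_le_finrank F E E).trans hd.le
  have : Finite (E →ₐ[F] E) := Finite.of_injective (fun φ : E →ₐ[F] E => (φ : E → E)) DFunLike.coe_injective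
  have hinj : Function.Injective g := by
    intro a b hab
    have h1 : ∀ X ∈ E, cs (s a) X = cs (s b) X := by
      intro X hX
      have h2 := congrArg (fun φ : E →ₐ[F] E => ((φ ⟨X, hX⟩ : E) : R F (H602.FC.V n F))) hab
      simp only [hg] at h2
      exact h2
    have h3 : ∀ X ∈ E, cs ((s b)⁻¹ * s a) X = X := by
      intro X hX
      have e : cs ((s b)⁻¹ * s a) = (cs (s b))⁻¹ * cs (s a) := by
        rw [cs, cs, cs, map_mul, map_mul, map_inv, map_inv]
      rw [e, Equiv.Perm.mul_apply, h1 X hX]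
      exact (cs (s b)).symm_apply_apply X
    have h4 : (us ((s b)⁻¹ * s a) : R F (H602.FC.V n F)) ∈ E :=
      H5.IFO.mem_of_comm hE (by rw [hd, hdim]) (fun X hX => H5.IFO.fix_one_of_cj.1 (h3 X hX))
    have h5 : pr n F q ((s b)⁻¹ * s a) = (b.1)⁻¹ * a.1 := by rw [map_mul, map_inv, hs, hs]
    have h6 : (b.1)⁻¹ * a.1 ∈ A := A.mul_mem (A.inv_mem b.2.1) a.2.1
    have h7 : σ ((b.1)⁻¹ * a.1) = (b.1)⁻¹ * a.1 := by rw [map_mul, map_inv, a.2.2, b.2.2]
    have h8 := key _ h4 (by rw [h5]; exact h6) (by rw [h5]; exact h7)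
    rw [h5] at h8
    apply Subtype.ext
    exact (inv_mul_eq_one.1 h8).symm
  exact (Nat.card_le_card_of_injective g hinj).trans hcard

end Cfsg.Agent.H716.IFO.U
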