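import Cfsg.Agent.H716.IFO.Frame

/-!
# S5719, `|A|` odd, linear groups (helper716): imprimitive, field extension, tensor and extraspecial cases
-/

set_option autoImplicit false
set_option linter.unusedSectionVars false

namespace Cfsg.Agent.H716.IFO
open Cfsg.Agent.H198.FC Cfsg.Agent.H716.FC Module

universe u v

variable {K : Type u} [Field K] {V : Type v} [AddCommGroup V] [Module K V]

variable (K V) in
/-- `SL(V)` -/
def SLX : Subgroup (R K V)ˣ where
  carrier := {x | LinearMap.det (x : R K V) = 1}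
  one_mem' := by
    change LinearMap.det ((1 : (R K V)ˣ) : R K V) = 1
    rw [Units.val_one, map_one]
  mul_mem' := by
    intro a b ha hb
    change LinearMap.det ((a * b : (R K V)ˣ) : R K V) = 1
    have ha' : LinearMap.det (a : R K V) = 1 := ha
    have hb' : LinearMap.det (b : R K V) = 1 := hb
    rw [Units.val_mul, map_mul, ha', hb', one_mul]
  inv_mem' := by
    intro a ha
    have ha' : LinearMap.det (a : R K V) = 1 := ha
    have h1 : LinearMap.det (((a⁻¹ : (R K V)ˣ) : R K V) * (a : R K V)) = 1 := by rw [Units.inv_mul, map_one]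
    rw [map_mul, ha', mul_one] at h1
    exact h1

theorem mem_SLX {x : (R K V)ˣ} : x ∈ SLX K V ↔ LinearMap.det (x : R K V) = 1 := Iff.rfl

theorem cj_mem {x : (R K V)ˣ} (hx : LinearMap.det (x : R K V) = 1) : cj K V x ∈ (SLX K V).map (cj K V) := ⟨x, hx, rfl⟩

/-- the unipotent element `1 + a` -/
theorem exists_un [Finite K] {a : R K V} (ha : a * a = 0) : ∃ x : (R K V)ˣ, (x : R K V) = 1 + a ∧
    ((x⁻¹ : (R K V)ˣ) : R K V) = 1 - a ∧ LinearMap.det (x : R K V) = 1 :=
  ⟨Cfsg.Agent.H923.FC.un a ha, rfl, rfl, Cfsg.Agent.H923.FC.det_one_add ha⟩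

/-- two orthogonal idempotents of the same rank -/
theorem exists_iso [Module.Finite K V] {p q : R K V} (hp : p * p = p) (hq : q * q = q) (hpq : p * q = 0)
    (hqp : q * p = 0) (hfr : finrank K (LinearMap.range p) = finrank K (LinearMap.range q)) :
    ∃ a b : R K V, a * b = q ∧ b * a = p ∧ a * p = a ∧ q * a = a ∧ b * q = b ∧ p * b = b := by
  have e := LinearEquiv.ofFinrankEq (LinearMap.range p) (LinearMap.range q) hfr
  have hp' : ∀ v : V, p (p v) = p v := fun v => by rw [← Module.End.mul_apply, hp]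
  have hq' : ∀ v : V, q (q v) = q v := fun v => by rw [← Module.End.mul_apply, hq]
  have hpr : ∀ w : LinearMap.range p, p (w : V) = w := by
    rintro ⟨_, v, rfl⟩
    exact hp' v
  have hqr : ∀ w : LinearMap.range q, q (w : V) = w := by
    rintro ⟨_, v, rfl⟩
    exact hq' v
  have hrp : ∀ w : LinearMap.range p, p.rangeRestrict (w : V) = w := fun w => Subtype.ext (hpr w)
  have hrq : ∀ w : LinearMap.range q, q.rangeRestrict (w : V) = w := fun w => Subtype.ext (hqr w)
  refine ⟨(LinearMap.range q).subtype ∘ₗ (e : LinearMap.range p →ₗ[K] LinearMap.range q) ∘ₗ p.rangeRestrict,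
    (LinearMap.range p).subtype ∘ₗ (e.symm : LinearMap.range q →ₗ[K] LinearMap.range p) ∘ₗ q.rangeRestrict,
    ?_, ?_, ?_, ?_, ?_, ?_⟩
  · ext v
    change ((e (p.rangeRestrict ((e.symm (q.rangeRestrict v) : LinearMap.range p) : V)) : LinearMap.range q) : V) = q v
    rw [hrp, LinearEquiv.apply_symm_apply]
    rfl
  · ext v
    change ((e.symm (q.rangeRestrict ((e (p.rangeRestrict v) : LinearMap.range q) : V)) : LinearMap.range p) : V) = p v
    rw [hrq, LinearEquiv.symm_apply_apply]
    rfl
  · ext v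
    change ((e (p.rangeRestrict (p v)) : LinearMap.range q) : V) = ((e (p.rangeRestrict v) : LinearMap.range q) : V)
    congr 2
    exact Subtype.ext (hp' v)
  · ext v
    change q ((e (p.rangeRestrict v) : LinearMap.range q) : V) = ((e (p.rangeRestrict v) : LinearMap.range q) : V)
    exact hqr _
  · ext v
    change ((e.symm (q.rangeRestrict (q v)) : LinearMap.range p) : V) =
      ((e.symm (q.rangeRestrict v) : LinearMap.range p) : V)
    congr 2
    exact Subtype.ext (hq' v)
  · ext v
    change p ((e.symm (q.rangeRestrict v) : LinearMap.range p) : V) =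
      ((e.symm (q.rangeRestrict v) : LinearMap.range p) : V)
    exact hpr _

namespace Fr

variable {A S : Subgroup (Equiv.Perm (R K V))} [Finite K] [Module.Finite K V]

/-- if the simple group normalizes the set `D`, and an element centralizes `D`, then `D` is scalar -/
theorem sc_of_StS (h : Fr (SLX K V) A S) (D : Set (R K V)) (hD : (SLX K V).map (cj K V) ≤ StS D) {x : (R K V)ˣ}
    (hx : LinearMap.det (x : R K V) = 1) (hx1 : cj K V x ≠ 1) (hxD : ∀ Y ∈ D, (x : R K V) * Y = Y * x) :
    ∀ Y ∈ D, ∃ s : K, Y = s • (1 : R K V) := by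
  haveI := h.nontriv
  let N : Subgroup (Equiv.Perm (R K V)) :=
    { carrier := {f | ∀ Y ∈ D, f Y = Y}
      one_mem' := fun _ _ => rfl
      mul_mem' := by
        intro f g hf hg Y hY
        change f (g Y) = Y
        rw [hg Y hY, hf Y hY]
      inv_mem' := by
        intro f hf Y hY
        have h1 : f Y = Y := hf Y hY
        change f⁻¹ Y = Y
        nth_rewrite 1 [← h1]
        exact f.symm_apply_apply Y }
  have hcom : ∀ (z : (R K V)ˣ) (Y : R K V), (z : R K V) * Y = Y * z ↔ cj K V z Y = Y := by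
    intro z Y
    rw [cj_apply]
    constructor
    · intro h1
      rw [h1, mul_assoc, Units.mul_inv, mul_one]
    · intro h1
      have h2 := congrArg (fun Z => Z * (z : R K V)) h1
      simp only [mul_assoc, Units.inv_mul, mul_one] at h2
      exact h2
  have h1 : (SLX K V).map (cj K V) ≤ N := by
    refine h.eq_top N ?_ (cj_mem hx) ?_ hx1
    · intro t ht f hf Y hY
      have h2 : t⁻¹ ∈ StS D := inv_mem (hD ht)
      have h3 : t⁻¹ Y ∈ D := (h2 Y).2 hY
      change t (f (t⁻¹ Y)) = Y
      rw [hf _ h3]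
      exact t.apply_symm_apply Y
    · intro Y hY
      exact (hcom x Y).1 (hxD Y hY)
  intro Y hY
  apply sc_of_comm_SL
  intro a ha
  obtain ⟨z, hz, -, hz1⟩ := exists_un ha
  have h2 := (hcom z Y).2 (h1 (cj_mem hz1) Y hY)
  rw [hz, add_mul, mul_add, one_mul, mul_one] at h2
  exact add_left_cancel h2

/-- the imprimitive case -/
theorem case_C2 (h : Fr (SLX K V) A S) {k d : ℕ} {e : Fin k → R K V} (hk : 2 ≤ k) (hd : 1 ≤ d)
    (he : CompleteOrthogonalIdempotents e) (hfr : ∀ i, finrank K (LinearMap.range (e i)) = d)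
    (hSe : ∀ f ∈ S, ∃ π : Equiv.Perm (Fin k), ∀ i, f (e i) = e (π i)) : False := by
  haveI := h.nontriv
  let i0 : Fin k := ⟨0, by omega⟩
  let i1 : Fin k := ⟨1, by omega⟩
  have h01 : i0 ≠ i1 := by
    intro h1
    have h2 : (0 : ℕ) = 1 := congrArg Fin.val h1
    omega
  obtain ⟨a, b, hab, hba, hap, hqa, hbq, hpb⟩ := exists_iso (he.idem i0) (he.idem i1) (he.ortho h01) (he.ortho h01.symm)
    ((hfr i0).trans (hfr i1).symm)
  set p := e i0 with hp
  set q := e i1 with hq
  have hpp : p * p = p := he.idem i0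
  have hqq : q * q = q := he.idem i1
  have hpq : p * q = 0 := he.ortho h01
  have hqp : q * p = 0 := he.ortho h01.symm
  have haa : a * a = 0 := by
    calc a * a = (a * p) * (q * a) := by rw [hap, hqa]
      _ = a * (p * q) * a := by simp only [mul_assoc]
      _ = 0 := by rw [hpq]; simp
  have hbb : b * b = 0 := by
    calc b * b = (b * q) * (p * b) := by rw [hbq, hpb]
      _ = b * (q * p) * b := by simp only [mul_assoc]
      _ = 0 := by rw [hqp]; simp
  have hp0 : p ≠ 0 := by
    intro h1
    have h2 := hfr i0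
    rw [← hp, h1, LinearMap.range_zero, finrank_bot] at h2
    omega
  have ha0 : a ≠ 0 := by
    rintro rfl
    rw [mul_zero] at hba
    exact hp0 hba.symm
  obtain ⟨x, hx, hxi, hx1, hx4, hxc⟩ := exists_J haa hbb (by rw [hab, hqa]) (by rw [hba, hpb]) ha0
  have hpa : p * a = 0 := by rw [← hqa, ← mul_assoc, hpq, zero_mul]
  have haq : a * q = 0 := by rw [← hap, mul_assoc, hpq, mul_zero]
  have hqb : q * b = 0 := by rw [← hpb, ← mul_assoc, hqp, zero_mul]
  have hbp : b * p = 0 := by rw [← hbq, mul_assoc, hqp, mul_zero]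
  let D : Set (R K V) := Set.range e
  have hN : S ≤ StS D := by
    intro f hf
    apply mem_StS_of
    rintro _ ⟨i, rfl⟩
    obtain ⟨π, hπ⟩ := hSe f hf
    exact ⟨π i, (hπ i).symm⟩
  have hJ : cj K V x ∈ StS D := by
    apply mem_StS_of
    rintro _ ⟨i, rfl⟩
    rw [cj_apply, hx, hxi, hab, hba]
    by_cases h0 : i = i0
    · subst h0
      refine ⟨i1, ?_⟩
      rw [← hp, ← hq]
      have e1 : (1 - q - p + a - b) * p = a := by
        have : (1 - q - p + a - b) * p = p - q * p - p * p + a * p - b * p := by noncomm_ring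
        rw [this, hqp, hpp, hap, hbp]; noncomm_ring
      have e2 : a * (1 - q - p - a + b) = q := by
        have : a * (1 - q - p - a + b) = a - a * q - a * p - a * a + a * b := by noncomm_ring
        rw [this, haq, hap, haa, hab]; noncomm_ring
      rw [e1, e2]
    by_cases h1 : i = i1
    · subst h1
      refine ⟨i0, ?_⟩
      rw [← hp, ← hq]
      have e1 : (1 - q - p + a - b) * q = -b := by
        have : (1 - q - p + a - b) * q = q - q * q - p * q + a * q - b * q := by noncomm_ring
        rw [this, hqq, hpq, haq, hbq]; noncomm_ring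
      have e2 : -b * (1 - q - p - a + b) = p := by
        have : -b * (1 - q - p - a + b) = -b + b * q + b * p + b * a - b * b := by noncomm_ring
        rw [this, hbq, hbp, hba, hbb]; noncomm_ring
      rw [e1, e2]
    · refine ⟨i, ?_⟩
      have f1 : q * e i = 0 := he.ortho (Ne.symm h1)
      have f2 : p * e i = 0 := he.ortho (Ne.symm h0)
      have f3 : e i * q = 0 := he.ortho h1
      have f4 : e i * p = 0 := he.ortho h0
      have e1 : (1 - q - p + a - b) * e i = e i := by
        have : (1 - q - p + a - b) * e i = e i - q * e i - p * e i + a * e i - b * e i := by noncomm_ring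
        have g1 : a * e i = 0 := by rw [← hap, mul_assoc, f2, mul_zero]
        have g2 : b * e i = 0 := by rw [← hbq, mul_assoc, f1, mul_zero]
        rw [this, f1, f2, g1, g2]; noncomm_ring
      have e2 : e i * (1 - q - p - a + b) = e i := by
        have : e i * (1 - q - p - a + b) = e i - e i * q - e i * p - e i * a + e i * b := by noncomm_ring
        have g1 : e i * a = 0 := by rw [← hqa, ← mul_assoc, f3, zero_mul]
        have g2 : e i * b = 0 := by rw [← hpb, ← mul_assoc, f4, zero_mul]
        rw [this, f3, f4, g1, g2]; noncomm_ring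
      rw [e1, e2]
  have h3 := h.le_of_even (StS D) hN (cj_mem hx1) hJ 2 (by rw [show (2 : ℕ) ^ 2 = 4 from rfl, ← map_pow, hx4, map_one]) hxc
  -- but `1 + a` does not permute the idempotents
  obtain ⟨z, hz, hzi, hz1⟩ := exists_un haa
  have h4 : cj K V z p ∈ D := (h3 (cj_mem hz1) p).2 ⟨i0, rfl⟩
  rw [cj_apply, hz, hzi] at h4
  have h5 : (1 + a) * p * (1 - a) = p + a := by
    have : (1 + a) * p * (1 - a) = p - p * a + a * p - a * p * a := by noncomm_ring
    rw [this, hpa, hap, haa]; noncomm_ring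
  rw [h5] at h4
  obtain ⟨j, hj⟩ := h4
  have h6 : p * e j = p := by
    rw [hj, mul_add, hpp, hpa, add_zero]
  have h7 : j = i0 := by
    by_contra hne
    have h8 : p * e j = 0 := he.ortho (Ne.symm hne)
    rw [h8] at h6
    exact hp0 h6.symm
  rw [h7, ← hp] at hj
  exact ha0 (left_eq_add.1 hj)

/-- the tensor case -/
theorem case_C4 (h : Fr (SLX K V) A S) {u' y : ℕ}
    (Φ : Matrix (Fin u' × Fin y) (Fin u' × Fin y) K ≃ₐ[K] R K V) (hu : 2 ≤ u') (hy : 2 ≤ y)
    (hSΦ : ∀ f ∈ S, ∀ B : Matrix (Fin u') (Fin u') K, ∃ B' : Matrix (Fin u') (Fin u') K,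
      f (Φ (Matrix.kroneckerMap (· * ·) B (1 : Matrix (Fin y) (Fin y) K))) =
        Φ (Matrix.kroneckerMap (· * ·) B' (1 : Matrix (Fin y) (Fin y) K))) : False := by
  haveI := h.nontriv
  let D : Set (R K V) := Set.range fun B : Matrix (Fin u') (Fin u') K =>
    Φ (Matrix.kroneckerMap (· * ·) B (1 : Matrix (Fin y) (Fin y) K))
  have hN : S ≤ StS D := by
    intro f hf
    apply mem_StS_of
    rintro _ ⟨B, rfl⟩
    obtain ⟨B', hB'⟩ := hSΦ f hf B
    exact ⟨B', hB'.symm⟩
  let i0 : Fin u' := ⟨0, by omega⟩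
  let i1 : Fin u' := ⟨1, by omega⟩
  let j0 : Fin y := ⟨0, by omega⟩
  let j1 : Fin y := ⟨1, by omega⟩
  have h01 : i0 ≠ i1 := by
    intro h1
    have h2 : (0 : ℕ) = 1 := congrArg Fin.val h1
    omega
  have g01 : j0 ≠ j1 := by
    intro h1
    have h2 : (0 : ℕ) = 1 := congrArg Fin.val h1
    omega
  let L : Matrix (Fin u') (Fin u') K → R K V := fun B =>
    Φ (Matrix.kroneckerMap (· * ·) B (1 : Matrix (Fin y) (Fin y) K))
  let M : Matrix (Fin y) (Fin y) K → R K V := fun B =>
    Φ (Matrix.kroneckerMap (· * ·) (1 : Matrix (Fin u') (Fin u') K) B)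
  have hLmul : ∀ B B', L B * L B' = L (B * B') := by
    intro B B'
    change Φ _ * Φ _ = Φ _
    rw [← map_mul]
    congr 1
    have := Matrix.mul_kronecker_mul B B' (1 : Matrix (Fin y) (Fin y) K) (1 : Matrix (Fin y) (Fin y) K)
    rw [mul_one] at this
    exact this.symm
  have hMmul : ∀ B B', M B * M B' = M (B * B') := by
    intro B B'
    change Φ _ * Φ _ = Φ _
    rw [← map_mul]
    congr 1
    have := Matrix.mul_kronecker_mul (1 : Matrix (Fin u') (Fin u') K) (1 : Matrix (Fin u') (Fin u') K) B B'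
    rw [mul_one] at this
    exact this.symm
  have hLM : ∀ B C, L B * M C = M C * L B := by
    intro B C
    change Φ _ * Φ _ = Φ _ * Φ _
    rw [← map_mul, ← map_mul]
    congr 1
    have h1 := Matrix.mul_kronecker_mul B (1 : Matrix (Fin u') (Fin u') K) (1 : Matrix (Fin y) (Fin y) K) C
    have h2 := Matrix.mul_kronecker_mul (1 : Matrix (Fin u') (Fin u') K) B C (1 : Matrix (Fin y) (Fin y) K)
    rw [mul_one, one_mul] at h1 h2
    exact h1.symm.trans h2
  have hL1 : L 1 = 1 := by
    change Φ (Matrix.kroneckerMap (fun x1 x2 => x1 * x2) 1 1) = 1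
    rw [Matrix.one_kronecker_one, map_one]
  have hLsub : ∀ B B', L (B - B') = L B - L B' := by
    intro B B'
    change Φ _ = Φ _ - Φ _
    rw [← map_sub]
    congr 1
    ext i j
    simp [Matrix.kroneckerMap_apply, sub_mul]
  have hLadd : ∀ B B', L (B + B') = L B + L B' := by
    intro B B'
    change Φ _ = Φ _ + Φ _
    rw [← map_add]
    congr 1
    ext i j
    simp [Matrix.kroneckerMap_apply, add_mul]
  have hL0 : ∀ B, L B = 0 → B = 0 := by
    intro B hB
    have h1 : Matrix.kroneckerMap (· * ·) B (1 : Matrix (Fin y) (Fin y) K) = 0 := by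
      apply Φ.injective
      rw [map_zero]; exact hB
    ext i j
    have h2 := congrFun (congrFun h1 (i, j0)) (j, j0)
    simpa [Matrix.kroneckerMap_apply] using h2
  have hM0 : ∀ B, M B = 0 → B = 0 := by
    intro B hB
    have h1 : Matrix.kroneckerMap (· * ·) (1 : Matrix (Fin u') (Fin u') K) B = 0 := by
      apply Φ.injective
      rw [map_zero]; exact hB
    ext i j
    have h2 := congrFun (congrFun h1 (i0, i)) (i0, j)
    simpa [Matrix.kroneckerMap_apply] using h2
  have hLz : L 0 = 0 := by rw [← sub_self (0 : Matrix (Fin u') (Fin u') K), hLsub, sub_self]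
  have hMz : M 0 = 0 := by
    change Φ _ = 0
    rw [← map_zero Φ]
    congr 1
    ext i j
    simp [Matrix.kroneckerMap_apply]
  -- the elements
  set a0 : Matrix (Fin u') (Fin u') K := Matrix.single i1 i0 1 with ha0
  set b0 : Matrix (Fin u') (Fin u') K := Matrix.single i0 i1 1 with hb0
  set c0 : Matrix (Fin y) (Fin y) K := Matrix.single j1 j0 1 with hc0
  set d0 : Matrix (Fin y) (Fin y) K := Matrix.single j0 j1 1 with hd0
  have s1 : a0 * a0 = 0 := by rw [ha0, Matrix.single_mul_single_of_ne _ _ _ _ h01]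
  have s2 : b0 * b0 = 0 := by rw [hb0, Matrix.single_mul_single_of_ne _ _ _ _ h01.symm]
  have s3 : a0 * b0 * a0 = a0 := by
    rw [ha0, hb0, Matrix.single_mul_single_same, Matrix.single_mul_single_same]; simp
  have s4 : b0 * a0 * b0 = b0 := by
    rw [ha0, hb0, Matrix.single_mul_single_same, Matrix.single_mul_single_same]; simp
  have t1 : c0 * c0 = 0 := by rw [hc0, Matrix.single_mul_single_of_ne _ _ _ _ g01]
  have t2 : d0 * d0 = 0 := by rw [hd0, Matrix.single_mul_single_of_ne _ _ _ _ g01.symm]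
  have t3 : c0 * d0 * c0 = c0 := by
    rw [hc0, hd0, Matrix.single_mul_single_same, Matrix.single_mul_single_same]; simp
  have t4 : d0 * c0 * d0 = d0 := by
    rw [hc0, hd0, Matrix.single_mul_single_same, Matrix.single_mul_single_same]; simp
  have na : L a0 ≠ 0 := by
    intro h1
    have h2 := congrFun (congrFun (hL0 _ h1) i1) i0
    rw [ha0, Matrix.single_apply_same] at h2
    exact one_ne_zero h2
  have nc : M c0 ≠ 0 := by
    intro h1
    have h2 := congrFun (congrFun (hM0 _ h1) j1) j0
    rw [hc0, Matrix.single_apply_same] at h2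
    exact one_ne_zero h2
  obtain ⟨x, hx, hxi, hx1, hx4, hxc⟩ := exists_J (a := L a0) (b := L b0) (by rw [hLmul, s1, hLz])
    (by rw [hLmul, s2, hLz]) (by rw [hLmul, hLmul, s3]) (by rw [hLmul, hLmul, s4]) na
  obtain ⟨z, hz, hzi, hz1, hz4, hzc⟩ := exists_J (a := M c0) (b := M d0) (by rw [hMmul, t1, hMz])
    (by rw [hMmul, t2, hMz]) (by rw [hMmul, hMmul, t3]) (by rw [hMmul, hMmul, t4]) nc
  have hJ : cj K V x ∈ StS D := by
    apply mem_StS_of
    rintro _ ⟨B, rfl⟩
    refine ⟨(1 - a0 * b0 - b0 * a0 + a0 - b0) * B * (1 - a0 * b0 - b0 * a0 - a0 + b0), ?_⟩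
    change L _ = cj K V x (L B)
    rw [cj_apply, hx, hxi]
    simp only [← hLmul, hLsub, hLadd, hL1]
  have h3 := h.le_of_even (StS D) hN (cj_mem hx1) hJ 2 (by rw [show (2 : ℕ) ^ 2 = 4 from rfl, ← map_pow, hx4, map_one]) hxc
  have h4 := h.sc_of_StS D h3 hz1 hzc (by
    rintro _ ⟨B, rfl⟩
    change (z : R K V) * L B = L B * z
    rw [hz]
    simp only [mul_sub, mul_add, sub_mul, add_mul, one_mul, mul_one, mul_assoc]
    have f1 := hLM B c0
    have f2 := hLM B d0
    have f3 : L B * (M c0 * M d0) = M c0 * (M d0 * L B) := by rw [← mul_assoc, f1, mul_assoc, f2]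
    have f4 : L B * (M d0 * M c0) = M d0 * (M c0 * L B) := by rw [← mul_assoc, f2, mul_assoc, f1]
    rw [f3, f4, f1, f2])
  obtain ⟨s, hs⟩ := h4 (L a0) ⟨a0, rfl⟩
  have h5 : L a0 * L a0 = 0 := by rw [hLmul, s1, hLz]
  rw [hs, smul_mul_smul_comm, mul_one] at h5
  have h6 : s * s = 0 := by
    rcases smul_eq_zero.1 h5 with h6 | h6
    · exact h6
    · exact absurd h6 one_ne_zero
  have h7 : s = 0 := mul_self_eq_zero.1 h6
  rw [h7, zero_smul] at hs
  exact na hs

end Fr

end Cfsg.Agent.H716.IFO
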