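import Cfsg.Agent.H716.IFO.Cases

/-!
# S5719, `|A|` odd, linear groups (helper716): field extension (`dim_E V ≥ 2`) and extraspecial cases
-/

set_option autoImplicit false
set_option linter.unusedSectionVars false

namespace Cfsg.Agent.H716.IFO
open Cfsg.Agent.H198.FC Cfsg.Agent.H716.FC Module

universe u v

variable {K : Type u} [Field K] {V : Type v} [AddCommGroup V] [Module K V]

/-- the centralizer of `A₀` in `PGL(V)` -/
theorem cent_mem [Finite K] [Module.Finite K V] {A₀ : Subgroup (Equiv.Perm (R K V))} {r m : ℕ} (h : Dat A₀ r m)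
    {x : (R K V)ˣ} (hx : ∀ f ∈ A₀, cj K V x * f = f * cj K V x) : cj K V x ∈ A₀ := by
  classical
  haveI := h.nontriv
  haveI : Finite (R K V) := finite_R
  haveI : Fintype A₀ := Fintype.ofFinite A₀
  obtain ⟨y, hy⟩ := h.exists_rep
  have h1 := h.expand hy (x : R K V)
  have h2 : ∃ α : A₀, LinearMap.trace K V ((x : R K V) * (((y α)⁻¹ : (R K V)ˣ) : R K V)) ≠ 0 := by
    by_contra hcon
    push Not at hcon
    rw [Finset.sum_congr rfl fun (α : A₀) _ => by rw [hcon α, zero_smul], Finset.sum_const_zero] at h1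
    exact h.n_ne_zero (smul_eq_zero_unit h1)
  obtain ⟨α, hα⟩ := h2
  set z : (R K V)ˣ := x * (y α)⁻¹ with hz
  have h3 : ∀ u ∈ Lf A₀, (z : R K V) * u = u * z := by
    intro u hu
    have h4 : cj K V z * cj K V u = cj K V u * cj K V z := by
      rw [hz, map_mul, map_inv, hy]
      have h5 := hx _ hu
      have h6 := h.hcomm _ α.2 _ hu
      have h7 : (α : Equiv.Perm (R K V))⁻¹ * cj K V u = cj K V u * (α : Equiv.Perm (R K V))⁻¹ := by
        rw [inv_mul_eq_iff_eq_mul, ← mul_assoc, h6, mul_assoc, mul_inv_cancel, mul_one]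
      rw [mul_assoc, h7, ← mul_assoc, h5, mul_assoc]
    obtain ⟨ε, hε⟩ := comm_sc h4
    have h5 : LinearMap.trace K V (((u⁻¹ : (R K V)ˣ) : R K V) * (z : R K V) * u) = LinearMap.trace K V (z : R K V) := by
      rw [LinearMap.trace_mul_comm, ← mul_assoc, Units.mul_inv, one_mul]
    have h6 : ((u⁻¹ : (R K V)ˣ) : R K V) * (z : R K V) * u = ε • (z : R K V) := by
      rw [mul_assoc, hε, mul_smul_comm, ← mul_assoc, Units.inv_mul, one_mul]
    rw [h6, map_smul, smul_eq_mul] at h5
    have h7 : (ε - 1) * LinearMap.trace K V (z : R K V) = 0 := by linear_combination h5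
    rcases mul_eq_zero.1 h7 with h8 | h8
    · rw [hε, sub_eq_zero.1 h8, one_smul]
    · exfalso
      apply hα
      rw [← h8, hz, Units.val_mul]
  obtain ⟨s, hs⟩ := h.sc_of_comm' h3
  have h8 : (x : R K V) = s • (y α : R K V) := by
    have h9 : (x : R K V) = (z : R K V) * (y α : R K V) := by
      rw [hz, Units.val_mul, mul_assoc, Units.inv_mul, mul_one]
    rw [h9, hs, smul_mul_assoc, one_mul]
  rw [cj_eq_of' h8, hy]
  exact α.2

namespace Fr

variable {A S : Subgroup (Equiv.Perm (R K V))} [Finite K] [Module.Finite K V]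

/-- the extraspecial case; `hinv` : an element of `SL(V)` of order 2 inverting `A₀` -/
theorem case_C6 {X : Subgroup (R K V)ˣ} (h : Fr X A S) {A₀ : Subgroup (Equiv.Perm (R K V))} {r m : ℕ}
    (hC : C6Data S A₀ r m)
    (hinv : r ≠ 2 → ∃ g : (R K V)ˣ, g * g = 1 ∧ cj K V g ∈ X.map (cj K V) ∧
      ∀ f ∈ A₀, cj K V g * f * (cj K V g)⁻¹ = f⁻¹) : False := by
  haveI := h.nontriv
  have hD : Dat A₀ r m := Dat.of hC
  have hA₀S : A₀ ≤ S := hC.2.2.2.1
  have hnorm : ∀ g ∈ S, ∀ f ∈ A₀, g * f * g⁻¹ ∈ A₀ := hC.2.2.2.2.2.2.2.2.2.1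
  have hmin := hC.2.2.2.2.2.2.2.2.2.2
  set T := X.map (cj K V) with hT
  let N : Subgroup (Equiv.Perm (R K V)) := Subgroup.normalizer (A₀ : Set (Equiv.Perm (R K V)))
  have hN : S ≤ N := by
    intro f hf
    rw [Subgroup.mem_normalizer_iff]
    intro x
    refine ⟨fun hx => hnorm f hf x hx, fun hx => ?_⟩
    have h1 := hnorm f⁻¹ (inv_mem hf) _ hx
    have e : f⁻¹ * (f * x * f⁻¹) * f⁻¹⁻¹ = x := by group
    rwa [e] at h1
  -- an element of `T ∩ N` centralizes `A₀` if `A₀ ∩ T = 1`
  have key : A₀ ⊓ T = ⊥ → ∀ t ∈ T, t ∈ N → t = 1 := by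
    intro h1 t ht htN
    have h2 : ∀ f ∈ A₀, t * f = f * t := by
      intro f hf
      have h3 : t * f * t⁻¹ * f⁻¹ ∈ A₀ := mul_mem ((Subgroup.mem_normalizer_iff.1 htN f).1 hf) (inv_mem hf)
      have h4 : t * f * t⁻¹ * f⁻¹ ∈ T := by
        have h5 : f * t⁻¹ * f⁻¹ ∈ T := h.invX f (hA₀S hf) _ (inv_mem ht)
        have h6 := mul_mem ht h5
        have e : t * (f * t⁻¹ * f⁻¹) = t * f * t⁻¹ * f⁻¹ := by group
        rwa [e] at h6
      have h5 : t * f * t⁻¹ * f⁻¹ ∈ A₀ ⊓ T := ⟨h3, h4⟩
      rw [h1, Subgroup.mem_bot] at h5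
      have h6 := congrArg (fun x => x * f * t) h5
      simp only [one_mul] at h6
      have e : t * f * t⁻¹ * f⁻¹ * f * t = t * f := by group
      rwa [e] at h6
    have h3 : t ∈ A₀ := by
      obtain ⟨x, hx, rfl⟩ := ht
      exact cent_mem hD h2
    have h4 : t ∈ A₀ ⊓ T := ⟨h3, ht⟩
    rwa [h1, Subgroup.mem_bot] at h4
  have hA₀1 : A₀ ≠ ⊥ := by
    intro h1
    have h2 := hD.hcard
    rw [h1, Subgroup.card_bot] at h2
    have h3 := Nat.one_lt_pow (n := 2 * m) (by have := hD.ha; omega) hD.pr.one_lt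
    omega
  rcases h.eq_or N hN with h1 | h1
  · rcases hmin (A₀ ⊓ T) inf_le_left (fun g hg f hf => ⟨hnorm g hg f hf.1, h.invX g hg f hf.2⟩) with h2 | h2
    · apply h.A1
      rw [Subgroup.eq_bot_iff_forall]
      intro a ha
      exact key h2 a (h.AX ha) (hN (h.AS ha))
    · have hAT : A₀ ≤ T := by rw [← h2]; exact inf_le_right
      have hA₀A : A₀ ≤ A := by
        rw [← h1]
        exact le_inf hAT Subgroup.le_normalizer
      have hr : r ≠ 2 := by
        rintro rfl
        have h3 : Nat.card A₀ ∣ Nat.card A := Subgroup.card_dvd_of_le hA₀A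
        rw [hD.hcard] at h3
        have h4 : 2 ∣ Nat.card A := (dvd_pow_self 2 (by have := hD.ha; omega)).trans h3
        exact (Nat.not_even_iff_odd.2 h.odd) (even_iff_two_dvd.2 h4)
      obtain ⟨g, hg, hgT, hgi⟩ := hinv hr
      have hgA : cj K V g ∈ A := by
        rw [← h1]
        refine Subgroup.mem_inf.2 ⟨hgT, ?_⟩
        rw [Subgroup.mem_normalizer_iff]
        intro x
        constructor
        · intro hx
          rw [hgi x hx]
          exact inv_mem hx
        · intro hx
          have h3 := hgi _ hx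
          have h4 : cj K V g * (cj K V g * x * (cj K V g)⁻¹) * (cj K V g)⁻¹ = x := by
            have h5 : cj K V g * cj K V g = 1 := by rw [← map_mul, hg, map_one]
            have h6 : (cj K V g)⁻¹ = cj K V g := inv_eq_of_mul_eq_one_left h5
            rw [h6]
            calc cj K V g * (cj K V g * x * cj K V g) * cj K V g = (cj K V g * cj K V g) * x * (cj K V g * cj K V g) := by
                  group
              _ = x := by rw [h5]; simp
          rw [h4] at h3
          rw [h3]
          exact inv_mem hx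
      have h3 : cj K V g = 1 := h.even_contra hgA 1 (by rw [pow_one, sq, ← map_mul, hg, map_one])
      apply hA₀1
      rw [Subgroup.eq_bot_iff_forall]
      intro f hf
      have h4 := hgi f hf
      rw [h3, one_mul, inv_one, mul_one] at h4
      have h5 : f ^ 2 = 1 := by
        rw [sq]
        nth_rewrite 1 [h4]
        exact inv_mul_cancel f
      have h6 : f ^ r = 1 := hD.hpow f hf
      have h7 : Nat.Coprime 2 r := (Nat.coprime_primes Nat.prime_two hD.pr).2 (Ne.symm hr)
      have h8 := orderOf_dvd_of_pow_eq_one h5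
      have h9 := orderOf_dvd_of_pow_eq_one h6
      exact orderOf_eq_one_iff.1 (Nat.eq_one_of_dvd_coprimes h7 h8 h9)
  · obtain ⟨x, hx, y, hy, hxy⟩ := h.nab
    rcases h.simple (A₀ ⊓ T) inf_le_right (fun t ht x hx =>
      Subgroup.mem_inf.2 ⟨(Subgroup.mem_normalizer_iff.1 (h1 ht) x).1 hx.1,
        mul_mem (mul_mem ht hx.2) (inv_mem ht)⟩) with h2 | h2
    · apply hxy
      rw [key h2 x hx (h1 hx), key h2 y hy (h1 hy)]
    · apply hxy
      have h3 : ∀ t ∈ T, t ∈ A₀ := fun t ht => by
        have h5 : t ∈ A₀ ⊓ T := by rw [h2]; exact ht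
        exact h5.1
      exact hD.hcomm x (h3 x hx) y (h3 y hy)

/-- the field extension case, `dim_E V ≥ 2` -/
theorem case_C3 (h : Fr (SLX K V) A S) (E : Subalgebra K (R K V)) (hE : IsField E) (h2 : 2 ≤ finrank K E)
    (hSE : ∀ f ∈ S, ∀ X ∈ E, f X ∈ E) (hne : finrank K E ≠ finrank K V) : False := by
  haveI := h.nontriv
  letI : Field E := hE.toField
  haveI : IsScalarTower K E V := ⟨fun a X v => by
    change (a • (X : R K V)) v = a • ((X : R K V) v)
    rfl⟩
  haveI : Module.Finite K E := inferInstance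
  haveI : Module.Finite E V := Module.Finite.of_restrictScalars_finite K E V
  have hmul := Module.finrank_mul_finrank K E V
  have hm : 2 ≤ finrank E V := by
    have h1 : finrank E V ≠ 0 := by
      intro h1
      rw [h1, mul_zero] at hmul
      have := h.hn
      omega
    have h3 : finrank E V ≠ 1 := by
      intro h3
      rw [h3, mul_one] at hmul
      exact hne hmul
    omega
  let b := Module.finBasis E V
  let i0 : Fin (finrank E V) := ⟨0, by omega⟩
  let i1 : Fin (finrank E V) := ⟨1, by omega⟩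
  have h01 : i0 ≠ i1 := by
    intro h1
    have h2 : (0 : ℕ) = 1 := congrArg Fin.val h1
    omega
  let a0 : V →ₗ[E] V := (b.coord i0).smulRight (b i1)
  let b0 : V →ₗ[E] V := (b.coord i1).smulRight (b i0)
  let a : R K V := a0.restrictScalars K
  let c : R K V := b0.restrictScalars K
  have hc1 : b.coord i0 (b i1) = 0 := by
    rw [Module.Basis.coord_apply, Module.Basis.repr_self, Finsupp.single_eq_of_ne h01]
  have hc2 : b.coord i1 (b i0) = 0 := by
    rw [Module.Basis.coord_apply, Module.Basis.repr_self, Finsupp.single_eq_of_ne h01.symm]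
  have hc3 : ∀ i, b.coord i (b i) = 1 := by
    intro i
    rw [Module.Basis.coord_apply, Module.Basis.repr_self, Finsupp.single_eq_same]
  have ha : ∀ v, a v = b.coord i0 v • b i1 := fun v => rfl
  have hcc : ∀ v, c v = b.coord i1 v • b i0 := fun v => rfl
  have haa : a * a = 0 := by
    ext v
    rw [Module.End.mul_apply, ha v, ha, map_smul, hc1, smul_zero, zero_smul]
    rfl
  have hbb : c * c = 0 := by
    ext v
    rw [Module.End.mul_apply, hcc v, hcc, map_smul, hc2, smul_zero, zero_smul]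
    rfl
  have haE : ∀ (s : E) v, a (s • v) = s • a v := a0.map_smul
  have hcE : ∀ (s : E) v, c (s • v) = s • c v := b0.map_smul
  have ha1 : a (b i0) = b i1 := by rw [ha, hc3, one_smul]
  have hc4 : c (b i1) = b i0 := by rw [hcc, hc3, one_smul]
  have haba : a * c * a = a := by
    ext v
    rw [Module.End.mul_apply, Module.End.mul_apply, ha v, hcE, hc4, haE, ha1]
  have hbab : c * a * c = c := by
    ext v
    rw [Module.End.mul_apply, Module.End.mul_apply, hcc v, haE, ha1, hcE, hc4]
  have ha0 : a ≠ 0 := by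
    intro h1
    have h3 := ha (b i0)
    rw [h1, hc3, one_smul] at h3
    exact b.ne_zero i1 h3.symm
  obtain ⟨x, hx, hxi, hx1, hx4, hxc⟩ := exists_J haa hbb haba hbab ha0
  have hlin : ∀ (g : V →ₗ[E] V) (Y : R K V), Y ∈ E → (g.restrictScalars K : R K V) * Y = Y * g.restrictScalars K := by
    intro g Y hY
    ext v
    exact g.map_smul (⟨Y, hY⟩ : E) v
  have hcom : ∀ Y ∈ E, (x : R K V) * Y = Y * x := by
    intro Y hY
    have e1 : a * Y = Y * a := hlin a0 Y hY
    have e2 : c * Y = Y * c := hlin b0 Y hY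
    have e3 : a * c * Y = Y * (a * c) := by rw [mul_assoc, e2, ← mul_assoc, e1, mul_assoc]
    have e4 : c * a * Y = Y * (c * a) := by rw [mul_assoc, e1, ← mul_assoc, e2, mul_assoc]
    rw [hx]
    simp only [mul_sub, mul_add, sub_mul, add_mul, one_mul, mul_one]
    rw [e1, e2, e3, e4]
  have hN : S ≤ StS (E : Set (R K V)) := fun f hf => mem_StS_of fun Y hY => hSE f hf Y hY
  have hJ : cj K V x ∈ StS (E : Set (R K V)) := by
    apply mem_StS_of
    intro Y hY
    rw [cj_apply, hcom Y hY, mul_assoc, Units.mul_inv, mul_one]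
    exact hY
  have h3 := h.le_of_even (StS (E : Set (R K V))) hN (cj_mem hx1) hJ 2
    (by rw [show (2 : ℕ) ^ 2 = 4 from rfl, ← map_pow, hx4, map_one]) hxc
  have h4 := h.sc_of_StS (E : Set (R K V)) h3 hx1 hxc hcom
  have h5 : E = ⊥ := by
    rw [eq_bot_iff]
    intro Y hY
    obtain ⟨s, hs⟩ := h4 Y hY
    rw [Algebra.mem_bot]
    exact ⟨s, by rw [hs, Algebra.algebraMap_eq_smul_one]⟩
  rw [h5, Subalgebra.finrank_bot] at h2
  omega

end Fr

end Cfsg.Agent.H716.IFO
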