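import Cfsg.Agent.H716.IFO.Jel
import Cfsg.Agent.H716.FC.TwoFin

/-!
# S5719, `|A|` odd, linear and unitary groups (helper716): the frame

Everything happens inside `Perm (End V)`: `X ≤ GL(V)` is `SL(V)` or `SU(V)`, `cj X` the simple group, `S ≤ RA K V`
the solvable group induced by the point stabiliser, `A = S ∩ cj X` of odd order.
-/

set_option autoImplicit false
set_option linter.unusedSectionVars false

namespace Cfsg.Agent.H716.IFO
open Cfsg.Agent.H198.FC Cfsg.Agent.H716.FC Module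

universe u v

variable {K : Type u} [Field K] {V : Type v} [AddCommGroup V] [Module K V]

/-- the frame -/
structure Fr (X : Subgroup (R K V)ˣ) (A S : Subgroup (Equiv.Perm (R K V))) : Prop where
  hn : 3 ≤ finrank K V
  hS : S ≤ RA K V
  sol : Group.IsSolvable S
  AX : A ≤ X.map (cj K V)
  AS : A ≤ S
  A1 : A ≠ ⊥
  neT : A ≠ X.map (cj K V)
  invX : ∀ f ∈ S, ∀ x ∈ X.map (cj K V), f * x * f⁻¹ ∈ X.map (cj K V)
  /-- `A` is maximal among the proper `S`-invariant subgroups -/
  max : ∀ B : Subgroup (Equiv.Perm (R K V)), A ≤ B → B ≤ X.map (cj K V) → (∀ f ∈ S, ∀ b ∈ B, f * b * f⁻¹ ∈ B) →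
    B = A ∨ B = X.map (cj K V)
  odd : Odd (Nat.card A)
  /-- simplicity -/
  simple : ∀ N : Subgroup (Equiv.Perm (R K V)), N ≤ X.map (cj K V) →
    (∀ t ∈ X.map (cj K V), ∀ x ∈ N, t * x * t⁻¹ ∈ N) → N = ⊥ ∨ N = X.map (cj K V)
  nab : ∃ x ∈ X.map (cj K V), ∃ y ∈ X.map (cj K V), x * y ≠ y * x

namespace Fr

variable {X : Subgroup (R K V)ˣ} {A S : Subgroup (Equiv.Perm (R K V))}

theorem nontriv (h : Fr X A S) : Nontrivial V :=
  Module.nontrivial_of_finrank_pos (R := K) (by have := h.hn; omega)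

/-- elements of 2-power order are not in `A` -/
theorem even_contra [Finite K] [Module.Finite K V] (h : Fr X A S) {t : Equiv.Perm (R K V)} (ht : t ∈ A) (k : ℕ)
    (h4 : t ^ (2 ^ k) = 1) : t = 1 := by
  haveI : Finite (R K V) := finite_R
  have h1 : orderOf t ∣ 2 ^ k := orderOf_dvd_of_pow_eq_one h4
  have h2 : orderOf t ∣ Nat.card A := by
    have h3 := orderOf_dvd_natCard (⟨t, ht⟩ : A)
    rwa [Subgroup.orderOf_mk] at h3
  have h3 : (2 ^ k).Coprime (Nat.card A) := Nat.Coprime.pow_left _ (Nat.coprime_two_left.2 h.odd)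
  exact orderOf_eq_one_iff.1 (Nat.eq_one_of_dvd_coprimes h3 h1 h2)

/-- (MAX) for a subgroup of `Perm (End V)` containing `S` -/
theorem eq_or (h : Fr X A S) (N : Subgroup (Equiv.Perm (R K V))) (hN : S ≤ N) :
    X.map (cj K V) ⊓ N = A ∨ X.map (cj K V) ≤ N := by
  rcases h.max (X.map (cj K V) ⊓ N) (le_inf h.AX (h.AS.trans hN)) inf_le_left (fun f hf b hb =>
    Subgroup.mem_inf.2 ⟨h.invX f hf b hb.1, N.mul_mem (N.mul_mem (hN hf) hb.2) (N.inv_mem (hN hf))⟩) with h1 | h1
  · exact Or.inl h1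
  · right
    rw [← h1]
    exact inf_le_right

/-- a 2-element in `N` shows that the simple group is contained in `N` -/
theorem le_of_even [Finite K] [Module.Finite K V] (h : Fr X A S) (N : Subgroup (Equiv.Perm (R K V))) (hN : S ≤ N)
    {t : Equiv.Perm (R K V)} (ht : t ∈ X.map (cj K V)) (htN : t ∈ N) (k : ℕ) (h4 : t ^ (2 ^ k) = 1) (h1 : t ≠ 1) :
    X.map (cj K V) ≤ N := by
  rcases h.eq_or N hN with h2 | h2
  · exfalso
    apply h1
    apply h.even_contra (k := k) _ h4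
    rw [← h2]
    exact ⟨ht, htN⟩
  · exact h2

/-- a nontrivial normal subgroup is everything -/
theorem eq_top (h : Fr X A S) (N : Subgroup (Equiv.Perm (R K V)))
    (hN : ∀ t ∈ X.map (cj K V), ∀ x ∈ N, t * x * t⁻¹ ∈ N) {y : Equiv.Perm (R K V)} (hy : y ∈ X.map (cj K V))
    (hyN : y ∈ N) (hy1 : y ≠ 1) : X.map (cj K V) ≤ N := by
  rcases h.simple (X.map (cj K V) ⊓ N) inf_le_left (fun t ht x hx =>
    Subgroup.mem_inf.2 ⟨Subgroup.mul_mem _ (Subgroup.mul_mem _ ht hx.1) (Subgroup.inv_mem _ ht), hN t ht x hx.2⟩) with h1 | h1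
  · exfalso
    apply hy1
    have h2 : y ∈ X.map (cj K V) ⊓ N := ⟨hy, hyN⟩
    rwa [h1, Subgroup.mem_bot] at h2
  · rw [← h1]
    exact inf_le_right

end Fr

/-- the stabiliser of a set of endomorphisms -/
def StS (D : Set (R K V)) : Subgroup (Equiv.Perm (R K V)) where
  carrier := {f | ∀ x, f x ∈ D ↔ x ∈ D}
  one_mem' := fun _ => Iff.rfl
  mul_mem' := by
    intro f g hf hg x
    exact (hf (g x)).trans (hg x)
  inv_mem' := by
    intro f hf x
    have h1 := hf (f⁻¹ x)
    have h2 : f (f⁻¹ x) = x := f.apply_symm_apply x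
    rw [h2] at h1
    exact h1.symm

theorem mem_StS {D : Set (R K V)} {f : Equiv.Perm (R K V)} : f ∈ StS D ↔ ∀ x, f x ∈ D ↔ x ∈ D := Iff.rfl

theorem mem_StS_of [Finite K] [Module.Finite K V] {D : Set (R K V)} {f : Equiv.Perm (R K V)}
    (h : ∀ x ∈ D, f x ∈ D) : f ∈ StS D := by
  haveI : Finite (R K V) := finite_R
  intro x
  refine ⟨fun hx => ?_, h x⟩
  have h1 : Set.MapsTo f D D := h
  have h2 : Set.SurjOn f D D := by
    have h3 : Function.Surjective (h1.restrict f D D) :=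
      Finite.surjective_of_injective (h1.restrict_inj.2 f.injective.injOn)
    intro y hy
    obtain ⟨z, hz⟩ := h3 ⟨y, hy⟩
    exact ⟨z, z.2, congrArg Subtype.val hz⟩
  obtain ⟨y, hy, hyx⟩ := h2 hx
  rw [← f.injective hyx]
  exact hy

/-- the endomorphisms commuting with `SL(V)` are scalars -/
theorem sc_of_comm_SL [Nontrivial V] [Module.Finite K V] {Y : R K V}
    (h : ∀ a : R K V, a * a = 0 → a * Y = Y * a) : ∃ s : K, Y = s • (1 : R K V) := by
  apply LinearMap.exists_eq_smul_id_of_forall_notLinearIndependent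
  intro v hli
  have hv0 : v ≠ 0 := hli.ne_zero 0
  have h2 : Y v ∉ Submodule.span K {v} := by
    intro h3
    obtain ⟨s, hs⟩ := Submodule.mem_span_singleton.1 h3
    have h4 := (LinearIndependent.pair_iff.1 hli) s (-1) (by rw [hs]; simp)
    exact one_ne_zero (neg_eq_zero.1 h4.2)
  obtain ⟨φ, hφ1, hφ2⟩ := Submodule.exists_le_ker_of_notMem h2
  have hφv : φ v = 0 := hφ2 (Submodule.mem_span_singleton_self v)
  have h3 := h (φ.smulRight v) (by
    ext w
    simp [hφv])
  have h4 := congrArg (fun Z : R K V => Z v) h3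
  simp only [Module.End.mul_apply, LinearMap.smulRight_apply, hφv, zero_smul, map_zero] at h4
  rcases smul_eq_zero.1 h4 with h5 | h5
  · exact hφ1 h5
  · exact hv0 h5

end Cfsg.Agent.H716.IFO
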