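import Cfsg.Agent.H716.FC.Sc
import Cfsg.Agent.H923.FC.Base

/-!
# S5719, `|A|` odd (helper716): elements of 2-power order

`exists_J` : from `a² = b² = 0`, `aba = a`, `bab = b`, `a ≠ 0` the element `J = (1+a)(1-b)(1+a) = 1 - ab - ba + a - b`
of determinant 1, `J⁴ = 1`, `cj J ≠ 1`.
-/

set_option autoImplicit false
set_option linter.unusedSectionVars false

namespace Cfsg.Agent.H716.IFO
open Cfsg.Agent.H198.FC Cfsg.Agent.H716.FC Module

universe u v

variable {K : Type u} [Field K] {V : Type v} [AddCommGroup V] [Module K V]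

/-- the element `J` -/
theorem exists_J [Finite K] {a b : R K V} (ha : a * a = 0) (hb : b * b = 0) (hab : a * b * a = a)
    (hba : b * a * b = b) (ha0 : a ≠ 0) :
    ∃ x : (R K V)ˣ, (x : R K V) = 1 - a * b - b * a + a - b ∧
      ((x⁻¹ : (R K V)ˣ) : R K V) = 1 - a * b - b * a - a + b ∧ LinearMap.det (x : R K V) = 1 ∧ x ^ 4 = 1 ∧
      cj K V x ≠ 1 := by
  have e1 : (1 + a) * (1 - b) * (1 + a) = 1 - a * b - b * a + a - b := by
    have : (1 + a) * (1 - b) * (1 + a) = 1 + a + a + a * a - b - a * b - b * a - a * b * a := by noncomm_ring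
    rw [this, ha, hab]; noncomm_ring
  have e2 : (1 - a) * (1 + b) * (1 - a) = 1 - a * b - b * a - a + b := by
    have : (1 - a) * (1 + b) * (1 - a) = 1 - a - a + a * a + b - a * b - b * a + a * b * a := by noncomm_ring
    rw [this, ha, hab]; noncomm_ring
  have u1 : (1 + a) * (1 - a) = 1 := by rw [mul_sub, mul_one, add_mul, one_mul, ha]; noncomm_ring
  have u2 : (1 - a) * (1 + a) = 1 := by rw [mul_add, mul_one, sub_mul, one_mul, ha]; noncomm_ring
  have u3 : (1 + b) * (1 - b) = 1 := by rw [mul_sub, mul_one, add_mul, one_mul, hb]; noncomm_ring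
  have u4 : (1 - b) * (1 + b) = 1 := by rw [mul_add, mul_one, sub_mul, one_mul, hb]; noncomm_ring
  have e3 : (1 + a) * (1 - b) * (1 + a) * ((1 - a) * (1 + b) * (1 - a)) = 1 := by
    calc _ = (1 + a) * ((1 - b) * (((1 + a) * (1 - a)) * (1 + b))) * (1 - a) := by simp only [mul_assoc]
      _ = 1 := by rw [u1, one_mul, u4, mul_one, u1]
  have e4 : (1 - a) * (1 + b) * (1 - a) * ((1 + a) * (1 - b) * (1 + a)) = 1 := by
    calc _ = (1 - a) * ((1 + b) * (((1 - a) * (1 + a)) * (1 - b))) * (1 + a) := by simp only [mul_assoc]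
      _ = 1 := by rw [u2, one_mul, u3, mul_one, u2]
  let x : (R K V)ˣ := ⟨(1 + a) * (1 - b) * (1 + a), (1 - a) * (1 + b) * (1 - a), e3, e4⟩
  have hx : (x : R K V) = 1 - a * b - b * a + a - b := e1
  have hxi : ((x⁻¹ : (R K V)ˣ) : R K V) = 1 - a * b - b * a - a + b := e2
  have p1 : a * b * (a * b) = a * b := by rw [← mul_assoc, hab]
  have p2 : b * a * (b * a) = b * a := by rw [← mul_assoc, hba]
  have p3 : a * b * (b * a) = 0 := by
    calc a * b * (b * a) = a * (b * b) * a := by simp only [mul_assoc]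
      _ = 0 := by rw [hb]; simp
  have p4 : b * a * (a * b) = 0 := by
    calc b * a * (a * b) = b * (a * a) * b := by simp only [mul_assoc]
      _ = 0 := by rw [ha]; simp
  have p5 : a * b * b = 0 := by rw [mul_assoc, hb, mul_zero]
  have p6 : b * a * a = 0 := by rw [mul_assoc, ha, mul_zero]
  have p7 : a * (a * b) = 0 := by rw [← mul_assoc, ha, zero_mul]
  have p8 : b * (b * a) = 0 := by rw [← mul_assoc, hb, zero_mul]
  have p9 : a * (b * a) = a := by rw [← mul_assoc, hab]
  have p10 : b * (a * b) = b := by rw [← mul_assoc, hba]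
  have hxx : (x : R K V) * x = 1 - a * b - b * a - a * b - b * a := by
    rw [hx]
    have : (1 - a * b - b * a + a - b) * (1 - a * b - b * a + a - b) =
        1 - a * b - b * a + a - b - (a * b - a * b * (a * b) - a * b * (b * a) + a * b * a - a * b * b)
        - (b * a - b * a * (a * b) - b * a * (b * a) + b * a * a - b * a * b)
        + (a - a * (a * b) - a * (b * a) + a * a - a * b) - (b - b * (a * b) - b * (b * a) + b * a - b * b) := by
      noncomm_ring
    rw [this, p1, p2, p3, p4, p5, p6, p7, p8, p9, p10, hab, hba, ha, hb]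
    noncomm_ring
  refine ⟨x, hx, hxi, ?_, ?_, ?_⟩
  · change LinearMap.det ((1 + a) * (1 - b) * (1 + a)) = 1
    rw [map_mul, map_mul, Cfsg.Agent.H923.FC.det_one_add ha, sub_eq_add_neg,
      Cfsg.Agent.H923.FC.det_one_add (N := -b) (by rw [neg_mul_neg, hb])]
    ring
  · apply Units.ext
    have h4 : x ^ 4 = (x * x) * (x * x) := by rw [← pow_two, ← pow_two, ← pow_mul]
    rw [h4, Units.val_mul, Units.val_mul, hxx, Units.val_one]
    have : (1 - a * b - b * a - a * b - b * a) * (1 - a * b - b * a - a * b - b * a) =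
        1 - 4 • (a * b) - 4 • (b * a) + 4 • (a * b * (a * b)) + 4 • (a * b * (b * a)) + 4 • (b * a * (a * b)) +
          4 • (b * a * (b * a)) := by noncomm_ring
    rw [this, p1, p2, p3, p4]
    noncomm_ring
  · intro hcj
    have h1 : cj K V x a = a := by rw [hcj]; rfl
    rw [cj_apply, hx, hxi] at h1
    have h2 : (1 - a * b - b * a + a - b) * a = -(b * a) := by
      have : (1 - a * b - b * a + a - b) * a = a - a * b * a - b * a * a + a * a - b * a := by noncomm_ring
      rw [this, hab, p6, ha]; noncomm_ring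
    have h3 : -(b * a) * (1 - a * b - b * a - a + b) = -b := by
      have : -(b * a) * (1 - a * b - b * a - a + b) =
          -(b * a) + b * a * (a * b) + b * a * (b * a) + b * a * a - b * a * b := by noncomm_ring
      rw [this, p4, p2, p6, hba]; noncomm_ring
    rw [h2, h3] at h1
    apply ha0
    have h4 : b = -a := by rw [← h1, neg_neg]
    rw [← hab, h4, mul_neg, ha, neg_zero, zero_mul]

end Cfsg.Agent.H716.IFO
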