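import Cfsg.Agent.H716.IFO.CasesB
import Cfsg.Agent.H574.IFO.Frame
import Cfsg.Agent.Schreier.ClassPSL

/-!
# S5719, `PSL_n(q)`, `|A|` odd: the frame (helper716)

`emb : PSL_n(F) → Perm (End V)`, `V = F^n`, and `SL Γ` the group of the ring (anti)automorphisms of `End V` inducing
elements of `Γ`.
-/

set_option autoImplicit false
set_option linter.unusedSectionVars false

namespace Cfsg.Agent.H716.IFO

open Matrix Subgroup Cfsg.Agent.H198.FC Cfsg.Agent.H199.PslAut Cfsg.Agent.H602.FC Cfsg.Agent.H209.Fxy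
open Cfsg.Agent.ClassicalGeometry.AutPSL.Root (pr pr_surjective)

variable {n : ℕ} {F : Type} [Field F]

/-- conjugation by `s` -/
noncomputable def cps : SpecialLinearGroup (Fin n) F →* Equiv.Perm (R F (H602.FC.V n F)) :=
  (H198.FC.cj F (H602.FC.V n F)).comp ((U n F).comp SpecialLinearGroup.toGL)

theorem cps_apply (s : SpecialLinearGroup (Fin n) F) :
    cps s = H198.FC.cj F (H602.FC.V n F) (U n F (s : GL (Fin n) F)) := rfl

theorem pair_cps (s : SpecialLinearGroup (Fin n) F) : ((cps s, MulAut.conj (pr s)) : GG n F) ∈ HH n F := by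
  have h : ((cps s, MulAut.conj (pr s)) : GG n F) = H602.FC.A n F (s : GL (Fin n) F) :=
    Prod.ext rfl (Psi_coe s).symm
  rw [h]
  exact H602.FC.A_mem _

theorem eqL_of_fst {f : Equiv.Perm (R F (H602.FC.V n F))} {σ τ : MulAut (ProjectiveSpecialLinearGroup (Fin n) F)}
    (h : ((f, σ) : GG n F) ∈ HH n F) (h' : ((f, τ) : GG n F) ∈ HH n F) : σ = τ := by
  have h1 : ((f, σ) : GG n F)⁻¹ * (f, τ) ∈ HH n F := mul_mem (inv_mem h) h'
  have h2 := eq_one_of_fst h1 (by
    change f⁻¹ * f = 1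
    exact inv_mul_cancel f)
  have h3 : σ⁻¹ * τ = 1 := congrArg Prod.snd h2
  exact (inv_mul_eq_one.1 h3)

theorem eqL_of_snd (hn : 2 ≤ n) {f g : Equiv.Perm (R F (H602.FC.V n F))}
    {σ : MulAut (ProjectiveSpecialLinearGroup (Fin n) F)}
    (h : ((f, σ) : GG n F) ∈ HH n F) (h' : ((g, σ) : GG n F) ∈ HH n F) : f = g := by
  have h1 : ((f, σ) : GG n F)⁻¹ * (g, σ) ∈ HH n F := mul_mem (inv_mem h) h'
  have h2 := eq_one_of_snd hn h1 (by
    change σ⁻¹ * σ = 1
    exact inv_mul_cancel σ)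
  have h3 : f⁻¹ * g = 1 := congrArg Prod.fst h2
  exact (inv_mul_eq_one.1 h3)

theorem cps_eq_one (hn : 2 ≤ n) {s : SpecialLinearGroup (Fin n) F} (h : pr s = 1) : cps s = 1 := by
  refine eqL_of_snd hn (σ := 1) ?_ (one_mem _)
  have h1 := pair_cps s
  rwa [h, map_one] at h1

variable (n F) in
/-- `PSL_n(F)` in `Perm (End V)` -/
noncomputable def emb (hn : 2 ≤ n) : ProjectiveSpecialLinearGroup (Fin n) F →* Equiv.Perm (R F (H602.FC.V n F)) :=
  QuotientGroup.lift (Subgroup.center (SpecialLinearGroup (Fin n) F)) cps fun s hs => by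
    apply cps_eq_one hn
    exact (Cfsg.Agent.ClassicalGeometry.AutPSL.Root.pr_eq_one_iff s).2 hs

theorem emb_pr (hn : 2 ≤ n) (s : SpecialLinearGroup (Fin n) F) : emb n F hn (pr s) = cps s := rfl

theorem pair_emb (hn : 2 ≤ n) (t : ProjectiveSpecialLinearGroup (Fin n) F) :
    ((emb n F hn t, MulAut.conj t) : GG n F) ∈ HH n F := by
  obtain ⟨s, rfl⟩ := pr_surjective t
  rw [emb_pr]
  exact pair_cps s

/-- **conjugation by the elements of the frame** -/
theorem conj_emb (hn : 2 ≤ n) {f : Equiv.Perm (R F (H602.FC.V n F))}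
    {σ : MulAut (ProjectiveSpecialLinearGroup (Fin n) F)}
    (h : ((f, σ) : GG n F) ∈ HH n F) (t : ProjectiveSpecialLinearGroup (Fin n) F) :
    f * emb n F hn t * f⁻¹ = emb n F hn (σ t) := by
  refine eqL_of_snd hn (σ := MulAut.conj (σ t)) ?_ (pair_emb hn (σ t))
  have h1 : ((f, σ) : GG n F) * (emb n F hn t, MulAut.conj t) * (f, σ)⁻¹ ∈ HH n F :=
    mul_mem (mul_mem h (pair_emb hn t)) (inv_mem h)
  have h2 : σ * MulAut.conj t * σ⁻¹ = MulAut.conj (σ t) := by
    ext x
    simp only [MulAut.mul_apply, MulAut.conj_apply, map_mul, map_inv, MulAut.apply_inv_self]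
  have h3 : ((f, σ) : GG n F) * (emb n F hn t, MulAut.conj t) * (f, σ)⁻¹ =
      (f * emb n F hn t * f⁻¹, MulAut.conj (σ t)) := Prod.ext rfl h2
  rwa [h3] at h1

/-- the range of `emb` -/
theorem emb_range (hn : 2 ≤ n) : (emb n F hn).range = (SLX F (H602.FC.V n F)).map (H198.FC.cj F (H602.FC.V n F)) := by
  ext f
  constructor
  · rintro ⟨t, rfl⟩
    obtain ⟨s, rfl⟩ := pr_surjective t
    refine ⟨U n F (s : GL (Fin n) F), ?_, rfl⟩
    rw [SetLike.mem_coe, mem_SLX, coe_U]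
    have h1 := LinearMap.det_toLin' (s : Matrix (Fin n) (Fin n) F)
    rw [s.2] at h1
    exact h1
  · rintro ⟨x, hx, rfl⟩
    rw [SetLike.mem_coe, mem_SLX] at hx
    have hd : ((E n F).symm (x : R F (H602.FC.V n F))).det = 1 :=
      (LinearMap.det_toMatrix' (x : R F (H602.FC.V n F))).trans hx
    let s : SpecialLinearGroup (Fin n) F := ⟨(E n F).symm (x : R F (H602.FC.V n F)), hd⟩
    have hs : U n F (s : GL (Fin n) F) = x := by
      apply Units.ext
      rw [coe_U]
      exact (E n F).apply_symm_apply _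
    refine ⟨pr s, ?_⟩
    rw [emb_pr, cps_apply, hs]

variable (Γ : Subgroup (MulAut (ProjectiveSpecialLinearGroup (Fin n) F)))

/-- the group of the ring (anti)automorphisms inducing elements of `Γ` -/
noncomputable def SL : Subgroup (Equiv.Perm (R F (H602.FC.V n F))) :=
  (HH n F ⊓ Γ.comap (MonoidHom.snd _ _)).map (MonoidHom.fst _ _)

variable {Γ}

theorem mem_SL {f : Equiv.Perm (R F (H602.FC.V n F))} :
    f ∈ SL Γ ↔ ∃ σ ∈ Γ, ((f, σ) : GG n F) ∈ HH n F := by
  constructor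
  · rintro ⟨p, ⟨hp, hp2⟩, rfl⟩
    exact ⟨p.2, hp2, hp⟩
  · rintro ⟨σ, hσ, h⟩
    exact ⟨(f, σ), ⟨h, hσ⟩, rfl⟩

theorem SL_le [Fintype F] : SL Γ ≤ RA F (H602.FC.V n F) := by
  intro f hf
  obtain ⟨σ, -, h⟩ := mem_SL.1 hf
  exact fst_mem h

theorem SL_solvable (hn : 2 ≤ n) (hΓ : Group.IsSolvable Γ) : Group.IsSolvable (SL Γ) := by
  have hT : Group.IsSolvable (HH n F ⊓ Γ.comap (MonoidHom.snd _ _) : Subgroup (GG n F)) := by
    let f : (HH n F ⊓ Γ.comap (MonoidHom.snd _ _) : Subgroup (GG n F)) →* Γ :=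
      ((MonoidHom.snd (Equiv.Perm (R F (H602.FC.V n F))) (MulAut (ProjectiveSpecialLinearGroup (Fin n) F))).comp
        (Subgroup.subtype (HH n F ⊓ Γ.comap (MonoidHom.snd _ _)))).codRestrict Γ fun p => p.2.2
    have hf : Function.Injective f := by
      rw [injective_iff_map_eq_one]
      intro p hp
      apply Subtype.ext
      exact eq_one_of_snd hn p.2.1 (congrArg Subtype.val hp)
    exact Group.isSolvable_of_isSolvable_injective hf
  exact Group.isSolvable_of_surjective (MonoidHom.subgroupMap_surjective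
    (MonoidHom.fst (Equiv.Perm (R F (H602.FC.V n F))) (MulAut (ProjectiveSpecialLinearGroup (Fin n) F)))
      (HH n F ⊓ Γ.comap (MonoidHom.snd _ _)))

theorem emb_inj (hn : 2 ≤ n) [IsSimpleGroup (ProjectiveSpecialLinearGroup (Fin n) F)]
    {A : Subgroup (ProjectiveSpecialLinearGroup (Fin n) F)} (h : IF A Γ) : Function.Injective (emb n F hn) := by
  rw [injective_iff_map_eq_one]
  intro t ht
  have h1 := pair_emb hn t
  rw [ht] at h1
  have h2 : MulAut.conj t = 1 := eqL_of_fst h1 (one_mem _)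
  apply H574.IFO.center_bot h
  intro y
  have h3 := DFunLike.congr_fun h2 y
  rw [MulAut.conj_apply, MulAut.one_apply] at h3
  exact mul_inv_eq_iff_eq_mul.1 h3

theorem emb_mem (hn : 2 ≤ n) {A : Subgroup (ProjectiveSpecialLinearGroup (Fin n) F)} (h : IF A Γ)
    {t : ProjectiveSpecialLinearGroup (Fin n) F} : emb n F hn t ∈ SL Γ ↔ t ∈ A := by
  rw [mem_SL]
  constructor
  · rintro ⟨σ, hσ, h1⟩
    have h2 := eqL_of_fst h1 (pair_emb hn t)
    rw [h2] at hσ
    exact (h.conj _).1 hσ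
  · intro hs
    exact ⟨_, (h.conj _).2 hs, pair_emb hn t⟩

/-- **The frame.** -/
theorem fr_psl [Fintype F] (hn : 3 ≤ n) [IsSimpleGroup (ProjectiveSpecialLinearGroup (Fin n) F)]
    {A : Subgroup (ProjectiveSpecialLinearGroup (Fin n) F)} (h : IF A Γ) (hodd : Odd (Nat.card A)) :
    Fr (SLX F (H602.FC.V n F)) (A.map (emb n F (by omega))) (SL Γ) := by
  have hn2 : 2 ≤ n := by omega
  have hinj := emb_inj hn2 h
  have hfin : Finite (ProjectiveSpecialLinearGroup (Fin n) F) := Quotient.finite _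
  have hran := emb_range (F := F) hn2
  have hmapinj : Function.Injective (Subgroup.map (emb n F hn2)) := Subgroup.map_injective hinj
  have hsub : ∀ B : Subgroup (Equiv.Perm (R F (H602.FC.V n F))), B ≤ (emb n F hn2).range →
      (B.comap (emb n F hn2)).map (emb n F hn2) = B := by
    intro B hB
    rw [Subgroup.map_comap_eq]
    exact inf_eq_right.2 hB
  refine ⟨by simpa [H602.FC.V] using hn, SL_le, SL_solvable hn2 (H574.IFO.solvable (Schreier.ClassPSL.sch hn2) h hodd),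
    ?_, ?_, ?_, ?_, ?_, ?_, ?_, ?_, ?_⟩
  · rw [← hran, MonoidHom.range_eq_map]
    exact Subgroup.map_mono le_top
  · rintro _ ⟨a, ha, rfl⟩
    exact (emb_mem hn2 h).2 ha
  · intro h1
    apply h.ne_bot
    apply hmapinj
    rw [h1, Subgroup.map_bot]
  · intro h1
    rw [← hran, MonoidHom.range_eq_map] at h1
    exact h.ne_top (hmapinj h1)
  · intro f hf x hx
    rw [← hran] at hx ⊢
    obtain ⟨t, rfl⟩ := hx
    obtain ⟨σ, -, hp⟩ := mem_SL.1 hf
    rw [conj_emb hn2 hp]
    exact ⟨_, rfl⟩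
  · intro B hAB hB hinv
    rw [← hran] at hB ⊢
    rcases h.max (B.comap (emb n F hn2)) (fun a ha => hAB ⟨a, ha, rfl⟩) (fun σ hσ b hb => by
      obtain ⟨p, hp, hp2⟩ := exists_pair hn2 σ
      have h1 : ((p.1, σ) : GG n F) ∈ HH n F := by rw [← hp2]; exact hp
      rw [Subgroup.mem_comap, ← conj_emb hn2 h1]
      exact hinv _ (mem_SL.2 ⟨σ, hσ, h1⟩) _ hb) with h1 | h1
    · left
      rw [← h1, hsub B hB]
    · right
      rw [← hsub B hB, h1, MonoidHom.range_eq_map]
  · rw [Subgroup.card_map_of_injective hinj]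
    exact hodd
  · intro N hN hnorm
    rw [← hran] at hN hnorm ⊢
    have h1 : (N.comap (emb n F hn2)).Normal := ⟨fun x hx t => by
      rw [Subgroup.mem_comap, map_mul, map_mul, map_inv]
      exact hnorm _ ⟨t, rfl⟩ _ hx⟩
    rcases h1.eq_bot_or_eq_top with h2 | h2
    · left
      rw [← hsub N hN, h2, Subgroup.map_bot]
    · right
      rw [← hsub N hN, h2, MonoidHom.range_eq_map]
  · obtain ⟨x, y, hxy⟩ := H574.IFO.not_comm h
    rw [← hran]
    refine ⟨emb n F hn2 x, ⟨x, rfl⟩, emb n F hn2 y, ⟨y, rfl⟩, fun h1 => hxy ?_⟩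
    apply hinj
    rw [map_mul, map_mul, h1]

/-- fixed elements -/
theorem card_fix (hn : 2 ≤ n) [IsSimpleGroup (ProjectiveSpecialLinearGroup (Fin n) F)]
    {A : Subgroup (ProjectiveSpecialLinearGroup (Fin n) F)} (h : IF A Γ)
    {f : Equiv.Perm (R F (H602.FC.V n F))} {σ : MulAut (ProjectiveSpecialLinearGroup (Fin n) F)}
    (hf : ((f, σ) : GG n F) ∈ HH n F) :
    Nat.card {a // a ∈ A ∧ σ a = a} = Nat.card {a // a ∈ A.map (emb n F hn) ∧ f * a = a * f} := by
  have hinj := emb_inj hn h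
  have key : ∀ a : ProjectiveSpecialLinearGroup (Fin n) F, σ a = a ↔ f * emb n F hn a = emb n F hn a * f := by
    intro a
    have h1 := conj_emb hn hf a
    constructor
    · intro h2
      rw [h2] at h1
      exact mul_inv_eq_iff_eq_mul.1 h1
    · intro h2
      apply hinj
      rw [← h1, h2, mul_assoc, mul_inv_cancel, mul_one]
  refine Nat.card_congr (Equiv.ofBijective (fun a => ⟨emb n F hn a.1, ⟨a.1, a.2.1, rfl⟩, (key _).1 a.2.2⟩) ⟨?_, ?_⟩)
  · intro a b hab
    apply Subtype.ext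
    apply hinj
    exact congrArg Subtype.val hab
  · rintro ⟨_, ⟨a, ha, rfl⟩, hc⟩
    exact ⟨⟨a, ha, (key a).2 hc⟩, rfl⟩

theorem card_A (hn : 2 ≤ n) [IsSimpleGroup (ProjectiveSpecialLinearGroup (Fin n) F)]
    {A : Subgroup (ProjectiveSpecialLinearGroup (Fin n) F)} (h : IF A Γ) :
    Nat.card (A.map (emb n F hn)) = Nat.card A := Subgroup.card_map_of_injective (emb_inj hn h)

end Cfsg.Agent.H716.IFO
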