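import Cfsg.Agent.H716.IFO.PslPair
import Cfsg.Agent.H886.FC.Class
import Cfsg.Agent.H14.IFO.Red
import Cfsg.Agent.H5.IFO.Num
import Cfsg.Agent.H5.IFO.Sing
import Cfsg.Agent.H5.IFO.SingF
import Cfsg.Agent.H204.IFO.CSix
import Cfsg.Agent.H243.IFO.Cls
import Cfsg.Agent.H243.IFO.NumPsl

/-!
# S5719, `PSL_n(q)`, `n ≥ 3`, `|A|` odd (helper716)
-/

set_option autoImplicit false
set_option linter.unusedSectionVars false

namespace Cfsg.Agent.H716.IFO

open Matrix Subgroup Cfsg.Agent.H198.FC Cfsg.Agent.H199.PslAut Cfsg.Agent.H602.FC Cfsg.Agent.H209.Fxy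
open Cfsg.Agent.ClassicalGeometry.AutPSL.Root (pr pr_surjective)

universe u v

/-- **The only case left is the Singer cycle.** -/
theorem Fr.singer {K : Type u} [Field K] [Finite K] {V : Type v} [AddCommGroup V] [Module K V] [Module.Finite K V]
    {A S : Subgroup (Equiv.Perm (R K V))} (h : Fr (SLX K V) A S) :
    ∃ E : Subalgebra K (R K V), IsField E ∧ (Module.finrank K E).Prime ∧ Module.finrank K E = Module.finrank K V ∧
      ∀ f ∈ S, ∀ X ∈ E, f X ∈ E := by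
  have hn := h.hn
  rcases H886.FC.stmtClass K V S (by omega) h.hS (fun h2 => by omega) h.sol (by
    intro h1
    apply h.A1
    rw [eq_bot_iff, ← h1]
    intro a ha
    refine ⟨h.AS ha, ?_⟩
    obtain ⟨x, -, rfl⟩ := h.AX ha
    exact ⟨x, rfl⟩) with ⟨W, hW1, hW2, hW⟩ | ⟨k, d, e, hk, hd, he, hfr, hS⟩ | ⟨E, hE, hp, hSE⟩ |
      ⟨u', y, Φ, hu, hy, hS⟩ | ⟨A₀, r, a, hC⟩
  · exact (H14.IFO.case_red h hW1 hW2 hW).elim
  · exact (h.case_C2 hk hd he hfr hS).elim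
  · by_cases hne : Module.finrank K E = Module.finrank K V
    · exact ⟨E, hE, hp, hne, hSE⟩
    · exact (h.case_C3 E hE hp.two_le hSE hne).elim
  · exact (h.case_C4 Φ hu hy hS).elim
  · refine (h.case_C6 hC fun hr => ?_).elim
    obtain ⟨g, hg, hg1, hg2⟩ := H204.IFO.CSix.c6_inv h.hS hC hr
    exact ⟨g, hg, ⟨g, mem_SLX.2 hg1, rfl⟩, hg2⟩

variable {n : ℕ} {F : Type} [Field F] [Fintype F]

/-- **`CellsPSL.oddA`** -/
theorem psl_odd (F : Type) [Field F] [Fintype F] (n : ℕ) (hn : 3 ≤ n)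
    (hs : IsSimpleGroup (ProjectiveSpecialLinearGroup (Fin n) F)) :
    KillO (ProjectiveSpecialLinearGroup (Fin n) F) := by
  intro A Γ h hodd
  have hn2 : 2 ≤ n := by omega
  have hfr := fr_psl hn h hodd
  obtain ⟨E, hE, hp, hd, hSE⟩ := hfr.singer
  have hdim : Module.finrank F (H602.FC.V n F) = n := by simp [H602.FC.V]
  have hnp : n.Prime := by rw [← hdim, ← hd]; exact hp
  have hno : Odd n := hnp.odd_of_ne_two (by omega)
  have hlow := H5.IFO.sing_low hfr hE hd hSE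
  rw [hdim, card_A hn2 h, Nat.card_eq_fintype_card] at hlow
  obtain ⟨σ, hσ, ho, -⟩ := h.ex
  rcases H243.IFO.cls hn hno ho with ⟨a, rfl⟩ | hcl | hcl | hcl
  · exact not_inner h hodd hσ ho
  · obtain ⟨f, hf, hlin, hanti⟩ := pair_graph hn hcl
    have hfS : f ∈ SL Γ := mem_SL.2 ⟨σ, hσ, hf⟩
    have hff := pair_sq hn2 hf ho
    have hup := H5.IFO.sing_up_graph hfr hE hd hSE (by rw [hdim]; exact hno) hfS hff hanti hlin
    rw [hdim, ← card_fix hn2 h hf] at hup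
    exact H5.IFO.num_graph hn hno h hodd hσ ho hcl hlow hup
  · obtain ⟨f, τ, hf, hτ, hsem, hmul⟩ := pair_field hn hcl
    have hfS : f ∈ SL Γ := mem_SL.2 ⟨σ, hσ, hf⟩
    have hff := pair_sq hn2 hf ho
    obtain ⟨q0, hq0⟩ := exists_q0 hτ (tau_sq hn2 hff hsem)
    have hup := H5.IFO.sing_up_field hfr hE hd hSE hτ (by rw [Nat.card_eq_fintype_card]; exact hq0) hfS hff hsem hmul
    rw [hdim, ← card_fix hn2 h hf] at hup
    exact H243.IFO.num_field hn hno h hodd hσ ho hcl hq0 hlow hup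
  · obtain ⟨f, τ, hf, hτ, hsem, hanti⟩ := pair_gf hn hcl
    have hfS : f ∈ SL Γ := mem_SL.2 ⟨σ, hσ, hf⟩
    have hff := pair_sq hn2 hf ho
    obtain ⟨q0, hq0⟩ := exists_q0 hτ (tau_sq hn2 hff hsem)
    have hup := H5.IFO.sing_up_gf hfr hE hd hSE hτ (by rw [Nat.card_eq_fintype_card]; exact hq0) hfS hff hsem hanti
    rw [hdim, ← card_fix hn2 h hf] at hup
    exact H243.IFO.num_gf hn hno h hσ ho hcl hq0 hlow hup

end Cfsg.Agent.H716.IFO
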