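import Cfsg.Agent.H716.IFO.PslFr

/-!
# S5719, `PSL_n(q)`, `|A|` odd: the ring (anti)automorphisms inducing graph, field and graph-field automorphisms (helper716)
-/

set_option autoImplicit false
set_option linter.unusedSectionVars false

namespace Cfsg.Agent.H716.IFO

open Matrix Subgroup Cfsg.Agent.H198.FC Cfsg.Agent.H199.PslAut Cfsg.Agent.H602.FC Cfsg.Agent.H209.Fxy
open Cfsg.Agent.ClassicalGeometry.AutPSL.Root (pr pr_surjective)

variable {n : ℕ} {F : Type} [Field F]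

theorem semA (g : GL (Fin n) F) (s : F) (X : R F (H602.FC.V n F)) :
    H198.FC.cj F (H602.FC.V n F) (U n F g) (s • X) = s • H198.FC.cj F (H602.FC.V n F) (U n F g) X := by
  rw [cj_apply, cj_apply, mul_smul_comm, smul_mul_assoc]

theorem semB (τ : F ≃+* F) (s : F) (X : R F (H602.FC.V n F)) :
    fm n F τ (s • X) = τ s • fm n F τ X := by
  obtain ⟨M, rfl⟩ := (E n F).surjective X
  rw [← map_smul, fm_E, fm_E, ← map_smul]
  congr 1
  ext i j
  simp

theorem semC (s : F) (X : R F (H602.FC.V n F)) : tm n F (s • X) = s • tm n F X := by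
  obtain ⟨M, rfl⟩ := (E n F).surjective X
  rw [← map_smul, tm_E, tm_E, ← map_smul]
  rfl

theorem antC (X Y : R F (H602.FC.V n F)) : tm n F (X * Y) = tm n F Y * tm n F X := by
  obtain ⟨M, rfl⟩ := (E n F).surjective X
  obtain ⟨N, rfl⟩ := (E n F).surjective Y
  rw [← map_mul, tm_E, tm_E, tm_E, ← map_mul, transpose_mul]

/-- the action on the scalars -/
theorem exists_sem {p : GG n F} (hp : p ∈ HH n F) : ∃ ρ : F ≃+* F, ∀ (s : F) X, p.1 (s • X) = ρ s • p.1 X := by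
  rcases hp with ⟨g, σ, rfl⟩ | ⟨-, g, σ, rfl⟩
  · refine ⟨σ, fun s X => ?_⟩
    change H198.FC.cj F (H602.FC.V n F) (U n F g) (fm n F σ (s • X)) =
      σ s • H198.FC.cj F (H602.FC.V n F) (U n F g) (fm n F σ X)
    rw [semB, semA]
  · refine ⟨σ, fun s X => ?_⟩
    change H198.FC.cj F (H602.FC.V n F) (U n F g) (fm n F σ (tm n F (s • X))) =
      σ s • H198.FC.cj F (H602.FC.V n F) (U n F g) (fm n F σ (tm n F X))
    rw [semC, semB, semA]

/-- a conjugate -/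
theorem sem_conj {κ f : Equiv.Perm (R F (H602.FC.V n F))} {ρ τ : F ≃+* F} (hκ : ∀ (s : F) X, κ (s • X) = ρ s • κ X)
    (hf : ∀ (s : F) X, f (s • X) = τ s • f X) (s : F) (X : R F (H602.FC.V n F)) :
    (κ⁻¹ * f * κ) (s • X) = (ρ.symm (τ (ρ s))) • (κ⁻¹ * f * κ) X := by
  change κ⁻¹ (f (κ (s • X))) = (ρ.symm (τ (ρ s))) • κ⁻¹ (f (κ X))
  apply κ.injective
  rw [hκ, hκ, hf, RingEquiv.apply_symm_apply]
  have h1 : ∀ Z, κ (κ⁻¹ Z) = Z := κ.apply_symm_apply
  rw [h1, h1]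

theorem mul_conj {κ f : Equiv.Perm (R F (H602.FC.V n F))} (hκ : κ ∈ RA F (H602.FC.V n F))
    (hf : ∀ X Y, f (X * Y) = f X * f Y) (X Y : R F (H602.FC.V n F)) :
    (κ⁻¹ * f * κ) (X * Y) = (κ⁻¹ * f * κ) X * (κ⁻¹ * f * κ) Y := by
  change κ⁻¹ (f (κ (X * Y))) = κ⁻¹ (f (κ X)) * κ⁻¹ (f (κ Y))
  have h1 : ∀ Z, κ (κ⁻¹ Z) = Z := κ.apply_symm_apply
  apply κ.injective
  rcases hκ.2 with h2 | h2
  · rw [h1, h2, h2, hf, h1, h1]
  · rw [h1, h2, h2, hf, h1, h1]

theorem ant_conj {κ f : Equiv.Perm (R F (H602.FC.V n F))} (hκ : κ ∈ RA F (H602.FC.V n F))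
    (hf : ∀ X Y, f (X * Y) = f Y * f X) (X Y : R F (H602.FC.V n F)) :
    (κ⁻¹ * f * κ) (X * Y) = (κ⁻¹ * f * κ) Y * (κ⁻¹ * f * κ) X := by
  change κ⁻¹ (f (κ (X * Y))) = κ⁻¹ (f (κ Y)) * κ⁻¹ (f (κ X))
  have h1 : ∀ Z, κ (κ⁻¹ Z) = Z := κ.apply_symm_apply
  apply κ.injective
  rcases hκ.2 with h2 | h2
  · rw [h1, h2, h2, hf, h1, h1]
  · rw [h1, h2, h2, hf, h1, h1]

/-- graph automorphisms -/
theorem pair_graph (hn : 3 ≤ n) {σ : MulAut (ProjectiveSpecialLinearGroup (Fin n) F)} (hcl : IsGraphAutClassPSL σ) :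
    ∃ f : Equiv.Perm (R F (H602.FC.V n F)), ((f, σ) : GG n F) ∈ HH n F ∧ (∀ (s : F) X, f (s • X) = s • f X) ∧
      ∀ X Y, f (X * Y) = f Y * f X := by
  obtain ⟨-, δ, γ, hδ, hγ, rfl⟩ := hcl
  obtain ⟨g, rfl⟩ := (innerDiag_iff δ).1 hδ
  obtain rfl := (invTr_iff γ).1 hγ
  refine ⟨(H602.FC.A n F g * B n F 1 * C n F).1, ?_, fun s X => ?_, fun X Y => ?_⟩
  · have h1 : (((H602.FC.A n F g * B n F 1 * C n F).1, Psi n F g * iot n F) : GG n F) =
        H602.FC.A n F g * B n F 1 * C n F := by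
      refine Prod.ext rfl ?_
      change Psi n F g * iot n F = Psi n F g * phi n F 1 * iot n F
      rw [map_one, mul_one]
    rw [h1]
    exact Or.inr ⟨hn, g, 1, rfl⟩
  · rw [map_one, mul_one]
    change H198.FC.cj F (H602.FC.V n F) (U n F g) (tm n F (s • X)) =
      s • H198.FC.cj F (H602.FC.V n F) (U n F g) (tm n F X)
    rw [semC, semA]
  · rw [map_one, mul_one]
    change H198.FC.cj F (H602.FC.V n F) (U n F g) (tm n F (X * Y)) =
      H198.FC.cj F (H602.FC.V n F) (U n F g) (tm n F Y) * H198.FC.cj F (H602.FC.V n F) (U n F g) (tm n F X)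
    rw [antC, (cj_mem_RP _).2]

variable [Fintype F]

theorem conj_ne {ρ τ : F ≃+* F} (hτ : τ ≠ RingEquiv.refl F) : ∃ s, (ρ.trans (τ.trans ρ.symm)) s ≠ s := by
  by_contra hcon
  push Not at hcon
  apply hτ
  ext s
  have h1 := hcon (ρ.symm s)
  change ρ.symm (τ (ρ (ρ.symm s))) = ρ.symm s at h1
  rw [RingEquiv.apply_symm_apply] at h1
  exact ρ.symm.injective h1

/-- field automorphisms -/
theorem pair_field (hn : 3 ≤ n) {σ : MulAut (ProjectiveSpecialLinearGroup (Fin n) F)} (hcl : IsFieldAutClassPSL σ) :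
    ∃ (f : Equiv.Perm (R F (H602.FC.V n F))) (τ : F ≃+* F), ((f, σ) : GG n F) ∈ HH n F ∧ (∃ s, τ s ≠ s) ∧
      (∀ (s : F) X, f (s • X) = τ s • f X) ∧ ∀ X Y, f (X * Y) = f X * f Y := by
  obtain ⟨α, τ, hτ, hstd⟩ := hcl
  have h0 := (std_iff τ _).1 hstd
  obtain ⟨p, hp, hpα⟩ := exists_pair (by omega : 2 ≤ n) α
  obtain ⟨ρ, hρ⟩ := exists_sem hp
  have hB : B n F τ ∈ HH n F := Or.inl ⟨1, τ, by rw [map_one, one_mul]⟩
  refine ⟨p.1⁻¹ * fm n F τ * p.1, ρ.trans (τ.trans ρ.symm), ?_, conj_ne hτ, sem_conj hρ (semB τ),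
    mul_conj (fst_mem hp) (fm_mem τ).2⟩
  have h1 : ((p.1⁻¹ * fm n F τ * p.1, σ) : GG n F) = p⁻¹ * B n F τ * p := by
    refine Prod.ext rfl ?_
    change σ = p.2⁻¹ * phi n F τ * p.2
    rw [← h0, hpα]
    group
  rw [h1]
  exact mul_mem (mul_mem (inv_mem hp) hB) hp

/-- graph-field automorphisms -/
theorem pair_gf (hn : 3 ≤ n) {σ : MulAut (ProjectiveSpecialLinearGroup (Fin n) F)} (hcl : IsGraphFieldAutClassPSL σ) :
    ∃ (f : Equiv.Perm (R F (H602.FC.V n F))) (τ : F ≃+* F), ((f, σ) : GG n F) ∈ HH n F ∧ (∃ s, τ s ≠ s) ∧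
      (∀ (s : F) X, f (s • X) = τ s • f X) ∧ ∀ X Y, f (X * Y) = f Y * f X := by
  obtain ⟨-, α, φ, γ, τ, hτ, hstd, hγ, h0⟩ := hcl
  have h2 := (std_iff τ _).1 hstd
  have h3 := (invTr_iff γ).1 hγ
  rw [h2, h3] at h0
  obtain ⟨p, hp, hpα⟩ := exists_pair (by omega : 2 ≤ n) α
  obtain ⟨ρ, hρ⟩ := exists_sem hp
  have hB : B n F τ * C n F ∈ HH n F := Or.inr ⟨hn, 1, τ, by rw [map_one, one_mul]⟩
  refine ⟨p.1⁻¹ * (fm n F τ * tm n F) * p.1, ρ.trans (τ.trans ρ.symm), ?_, conj_ne hτ, sem_conj hρ (τ := τ) ?_,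
    ant_conj (fst_mem hp) ?_⟩
  · have h1 : ((p.1⁻¹ * (fm n F τ * tm n F) * p.1, σ) : GG n F) = p⁻¹ * (B n F τ * C n F) * p := by
      refine Prod.ext rfl ?_
      change σ = p.2⁻¹ * (phi n F τ * iot n F) * p.2
      rw [← h0, hpα]
      group
    rw [h1]
    exact mul_mem (mul_mem (inv_mem hp) hB) hp
  · intro s X
    change fm n F τ (tm n F (s • X)) = τ s • fm n F τ (tm n F X)
    rw [semC, semB]
  · intro X Y
    change fm n F τ (tm n F (X * Y)) = fm n F τ (tm n F Y) * fm n F τ (tm n F X)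
    rw [antC, (fm_mem τ).2]

/-- `f` is an involution -/
theorem pair_sq (hn : 2 ≤ n) {f : Equiv.Perm (R F (H602.FC.V n F))}
    {σ : MulAut (ProjectiveSpecialLinearGroup (Fin n) F)} (hf : ((f, σ) : GG n F) ∈ HH n F) (ho : orderOf σ = 2) :
    f * f = 1 := by
  have h1 : ((f, σ) : GG n F) * (f, σ) ∈ HH n F := mul_mem hf hf
  have h2 : σ * σ = 1 := by rw [← pow_two, ← ho, pow_orderOf_eq_one]
  exact congrArg Prod.fst (eq_one_of_snd hn h1 h2)

/-- an involutory automorphism of a finite field -/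
theorem exists_q0 {τ : F ≃+* F} (hτ : ∃ s, τ s ≠ s) (h2 : ∀ s, τ (τ s) = s) : ∃ q0 : ℕ, Fintype.card F = q0 ^ 2 := by
  have h3 : orderOf τ = 2 := by
    refine orderOf_eq_prime ?_ ?_
    · rw [pow_two]
      ext s
      exact h2 s
    · rintro rfl
      obtain ⟨s, hs⟩ := hτ
      exact hs rfl
  let G := Subgroup.zpowers τ
  haveI : Finite (F ≃+* F) := Finite.of_injective (fun f : F ≃+* F => (f : F → F)) DFunLike.coe_injective
  haveI : Fintype G := Fintype.ofFinite G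
  have h4 : Module.finrank (FixedPoints.subfield G F) F = 2 := by
    rw [FixedPoints.finrank_eq_card, ← Nat.card_eq_fintype_card, Nat.card_zpowers, h3]
  haveI : Fintype (FixedPoints.subfield G F) := Fintype.ofFinite _
  refine ⟨Fintype.card (FixedPoints.subfield G F), ?_⟩
  rw [← h4]
  exact Module.card_eq_pow_finrank

theorem tau_sq (hn : 2 ≤ n) {τ : F ≃+* F} {f : Equiv.Perm (R F (H602.FC.V n F))} (hff : f * f = 1)
    (hf : ∀ (s : F) X, f (s • X) = τ s • f X) (s : F) : τ (τ s) = s := by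
  have h1 : ∀ X, f (f X) = X := fun X => DFunLike.congr_fun hff X
  have h2 : s • (1 : R F (H602.FC.V n F)) = τ (τ s) • (1 : R F (H602.FC.V n F)) := by
    rw [← h1 (s • 1), hf, hf, h1]
  haveI : Nonempty (Fin n) := ⟨⟨0, by omega⟩⟩
  haveI : Nontrivial (H602.FC.V n F) := by
    unfold H602.FC.V
    infer_instance
  obtain ⟨v, hv⟩ := exists_ne (0 : H602.FC.V n F)
  have h3 : s • v = τ (τ s) • v := DFunLike.congr_fun h2 v
  have h4 : (s - τ (τ s)) • v = 0 := by rw [sub_smul, h3, sub_self]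
  rcases smul_eq_zero.1 h4 with h5 | h5
  · exact (sub_eq_zero.1 h5).symm
  · exact absurd h5 hv

/-- no inner automorphism of order 2 -/
theorem not_inner [IsSimpleGroup (ProjectiveSpecialLinearGroup (Fin n) F)]
    {A : Subgroup (ProjectiveSpecialLinearGroup (Fin n) F)} {Γ : Subgroup (MulAut (ProjectiveSpecialLinearGroup (Fin n) F))}
    (h : IF A Γ) (hodd : Odd (Nat.card A)) {a : ProjectiveSpecialLinearGroup (Fin n) F} (ha : MulAut.conj a ∈ Γ)
    (ho : orderOf (MulAut.conj a) = 2) : False := by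
  have h1 := (h.conj a).1 ha
  have hinj : Function.Injective (MulAut.conj : ProjectiveSpecialLinearGroup (Fin n) F →* _) := by
    rw [injective_iff_map_eq_one]
    intro t ht
    apply H574.IFO.center_bot h
    intro y
    have h3 := DFunLike.congr_fun ht y
    rw [MulAut.conj_apply, MulAut.one_apply] at h3
    exact mul_inv_eq_iff_eq_mul.1 h3
  rw [orderOf_injective _ hinj] at ho
  have h2 : orderOf (⟨a, h1⟩ : A) ∣ Nat.card A := orderOf_dvd_natCard _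
  rw [Subgroup.orderOf_mk, ho] at h2
  exact (Nat.not_even_iff_odd.2 hodd) (even_iff_two_dvd.2 h2)

end Cfsg.Agent.H716.IFO
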